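import Mathlib

/-! Generic part of the determination of an involution centralizer of `M24`: coordinates on an elementary abelian group of
order sixteen and the linear stabiliser of a vector. -/

set_option autoImplicit false

namespace Cfsg.Agent.M24X.Cent8

open Matrix

/-- the coordinate space -/
abbrev V4 := ZMod 2 × (Fin 3 → ZMod 2)

section Gen

variable {G : Type*} [Group G]

theorem exists_t {E : Subgroup G} [Finite E] (hE : Nat.card E = 16) (h2 : ∀ e ∈ E, e * e = 1) {z : G}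
    (hz : z ∈ E) (hz1 : z ≠ 1) :
    ∃ t : V4 → G, (∀ v w, t (v + w) = t v * t w) ∧ Function.Injective t ∧ (∀ g, g ∈ E ↔ ∃ v, t v = g) ∧
      t (1, 0) = z := by
  classical
  have hcomm : ∀ a b : E, a * b = b * a := by
    intro a b
    have h3 : ∀ x : E, x⁻¹ = x := fun x => inv_eq_of_mul_eq_one_right (Subtype.ext (h2 x x.2))
    have := h3 (a * b)
    rw [_root_.mul_inv_rev, h3, h3] at this
    exact this.symm
  let _ : CommGroup E := { (inferInstance : Group E) with mul_comm := hcomm }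
  let _ : Module (ZMod 2) (Additive E) := AddCommGroup.zmodModule (n := 2) (fun x => by
    rw [two_nsmul]
    exact congrArg Additive.ofMul (Subtype.ext (h2 (x.toMul : E) (x.toMul : E).2) : (x.toMul : E) * x.toMul = 1))
  have hfin : Finite (Additive E) := inferInstanceAs (Finite E)
  have hf4 : Module.finrank (ZMod 2) (Additive E) = 4 := by
    have h3 : Nat.card (Additive E) = 16 := hE
    have h4 := Module.natCard_eq_pow_finrank (K := ZMod 2) (V := Additive E)
    rw [h3, Nat.card_zmod, show (16 : ℕ) = 2 ^ 4 from rfl] at h4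
    exact (Nat.pow_right_injective (le_refl 2) h4).symm
  set x : Additive E := Additive.ofMul ⟨z, hz⟩ with hx
  have hx0 : x ≠ 0 := by
    intro h
    apply hz1
    exact congrArg (fun y : Additive E => ((y.toMul : E) : G)) h
  obtain ⟨F, hF⟩ := Submodule.exists_isCompl (Submodule.span (ZMod 2) {x})
  have h1 : Module.finrank (ZMod 2) (Submodule.span (ZMod 2) {x}) = 1 := finrank_span_singleton hx0
  have h3 : Module.finrank (ZMod 2) F = 3 := by
    have := Submodule.finrank_add_eq_of_isCompl hF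
    omega
  let e1 : ZMod 2 ≃ₗ[ZMod 2] Submodule.span (ZMod 2) {x} := LinearEquiv.toSpanNonzeroSingleton (ZMod 2) _ x hx0
  have e2 : (Fin 3 → ZMod 2) ≃ₗ[ZMod 2] F := LinearEquiv.ofFinrankEq _ _ (by rw [h3]; simp)
  let T : V4 ≃ₗ[ZMod 2] Additive E := (LinearEquiv.prodCongr e1 e2).trans (Submodule.prodEquivOfIsCompl _ _ hF)
  refine ⟨fun v => ((T v).toMul : E), ?_, ?_, ?_, ?_⟩
  · intro v w
    show (((T (v + w)).toMul : E) : G) = _
    rw [map_add]; rfl
  · intro v w h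
    exact T.injective (Additive.toMul.injective (Subtype.ext h))
  · intro g
    constructor
    · intro hg
      refine ⟨T.symm (Additive.ofMul ⟨g, hg⟩), ?_⟩
      show (((T (T.symm (Additive.ofMul ⟨g, hg⟩))).toMul : E) : G) = g
      rw [T.apply_symm_apply]; rfl
    · rintro ⟨v, rfl⟩
      exact ((T v).toMul : E).2
  · have : T (1, 0) = x := by
      show (Submodule.prodEquivOfIsCompl _ _ hF) (e1 1, e2 0) = x
      rw [map_zero]
      show ((e1 1 : Submodule.span (ZMod 2) {x}) : Additive E) + ((0 : F) : Additive E) = x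
      rw [Submodule.coe_zero, add_zero]
      show (1 : ZMod 2) • x = x
      rw [one_smul]
    show ((T (1, 0)).toMul : E) = z
    rw [this]; rfl

theorem exists_Psi {V : Type*} [AddCommGroup V] [Module (ZMod 2) V] {t : V → G}
    (ht : ∀ v w, t (v + w) = t v * t w) (hinj : Function.Injective t) (N : Subgroup G)
    (hN : ∀ g ∈ N, ∀ v, ∃ w, t w = g * t v * g⁻¹) :
    ∃ Ψ : N →* (V ≃ₗ[ZMod 2] V), ∀ (g : N) v, t (Ψ g v) = g * t v * (g : G)⁻¹ := by
  choose F hF using hN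
  have key : ∀ (g : G) (hg : g ∈ N) v, t (F g hg v) = g * t v * g⁻¹ := hF
  have hadd : ∀ (g : G) (hg : g ∈ N) v w, F g hg (v + w) = F g hg v + F g hg w := by
    intro g hg v w
    apply hinj
    rw [key, ht, ht, key, key]; group
  let A : N → (V →+ V) := fun g =>
    { toFun := F g g.2
      map_zero' := by
        have h := hadd g g.2 0 0
        rw [add_zero] at h
        exact left_eq_add.1 h
      map_add' := hadd g g.2 }
  let L : N → (V →ₗ[ZMod 2] V) := fun g => (A g).toZModLinearMap 2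
  have hL : ∀ (g : N) v, t (L g v) = g * t v * (g : G)⁻¹ := fun g v => key g g.2 v
  have hinv : ∀ g : N, ∀ v, L g⁻¹ (L g v) = v := by
    intro g v
    apply hinj
    rw [hL, hL, Subgroup.coe_inv]; group
  have hinv' : ∀ g : N, ∀ v, L g (L g⁻¹ v) = v := by
    intro g v
    apply hinj
    rw [hL, hL, Subgroup.coe_inv]; group
  let Φ : N → (V ≃ₗ[ZMod 2] V) := fun g =>
    LinearEquiv.ofLinearMap (L g) (L g⁻¹) (LinearMap.ext (hinv' g)) (LinearMap.ext (hinv g))
  refine ⟨MonoidHom.mk' Φ ?_, fun g v => hL g v⟩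
  intro a b
  apply LinearEquiv.ext
  intro v
  apply hinj
  show t (L (a * b) v) = t (L a (L b v))
  rw [hL, hL, hL, Subgroup.coe_mul]; group

end Gen

theorem card_aut : Nat.card (V4 ≃ₗ[ZMod 2] V4) = 20160 := by
  have e : V4 ≃ₗ[ZMod 2] (Fin 4 → ZMod 2) := LinearEquiv.ofFinrankEq _ _ (by simp)
  let c : (V4 ≃ₗ[ZMod 2] V4) ≃ ((Fin 4 → ZMod 2) ≃ₗ[ZMod 2] (Fin 4 → ZMod 2)) :=
    { toFun := fun f => (e.symm.trans f).trans e
      invFun := fun f => (e.trans f).trans e.symm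
      left_inv := fun f => by ext v <;> simp
      right_inv := fun f => by ext v; simp }
  rw [Nat.card_congr c, ← Nat.card_congr (LinearMap.GeneralLinearGroup.generalLinearEquiv (ZMod 2) (Fin 4 → ZMod 2)).toEquiv,
    ← Nat.card_congr (Matrix.GeneralLinearGroup.toLin (n := Fin 4) (R := ZMod 2)).toEquiv, Matrix.card_GL_field]
  simp [Fin.prod_univ_succ, ZMod.card]

/-- transvections -/
def tv (f : Fin 3 → ZMod 2) : V4 ≃ₗ[ZMod 2] V4 where
  toFun v := (v.1 + f ⬝ᵥ v.2, v.2)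
  invFun v := (v.1 + f ⬝ᵥ v.2, v.2)
  map_add' v w := by
    ext
    · simp only [Prod.fst_add, Prod.snd_add, dotProduct_add]; ring
    · simp
  map_smul' c v := by
    ext
    · simp only [Prod.smul_fst, Prod.smul_snd, dotProduct_smul, RingHom.id_apply, smul_add]
    · simp
  left_inv v := by
    ext
    · show v.1 + f ⬝ᵥ v.2 + f ⬝ᵥ v.2 = v.1
      rw [add_assoc, CharTwo.add_self_eq_zero, add_zero]
    · rfl
  right_inv v := by
    ext
    · show v.1 + f ⬝ᵥ v.2 + f ⬝ᵥ v.2 = v.1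
      rw [add_assoc, CharTwo.add_self_eq_zero, add_zero]
    · rfl

theorem tv_apply (f : Fin 3 → ZMod 2) (v : V4) : tv f v = (v.1 + f ⬝ᵥ v.2, v.2) := rfl

theorem tv_add (f g : Fin 3 → ZMod 2) : tv (f + g) = tv f * tv g := by
  apply LinearEquiv.ext
  intro v
  rw [LinearEquiv.mul_apply, tv_apply, tv_apply, tv_apply, add_dotProduct]
  ext
  · show v.1 + (f ⬝ᵥ v.2 + g ⬝ᵥ v.2) = v.1 + g ⬝ᵥ v.2 + f ⬝ᵥ v.2
    ring
  · rfl

/-- block matrices -/
def blk : SpecialLinearGroup (Fin 3) (ZMod 2) →* (V4 ≃ₗ[ZMod 2] V4) where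
  toFun A := LinearEquiv.prodCongr (LinearEquiv.refl (ZMod 2) (ZMod 2)) (SpecialLinearGroup.toLin' A)
  map_one' := by
    apply LinearEquiv.ext
    intro v
    rw [map_one]; rfl
  map_mul' A B := by
    apply LinearEquiv.ext
    intro v
    rw [map_mul]; rfl

theorem blk_apply (A : SpecialLinearGroup (Fin 3) (ZMod 2)) (v : V4) :
    blk A v = (v.1, (A : Matrix (Fin 3) (Fin 3) (ZMod 2)) *ᵥ v.2) := rfl

theorem blk_injective : Function.Injective blk := by
  intro A B h
  apply Subtype.ext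
  apply Matrix.toLin'.injective
  apply LinearMap.ext
  intro v
  exact congrArg (fun T : V4 ≃ₗ[ZMod 2] V4 => (T (0, v)).2) h

theorem tv_eq_blk {f : Fin 3 → ZMod 2} {A : SpecialLinearGroup (Fin 3) (ZMod 2)} (h : tv f = blk A) :
    f = 0 ∧ A = 1 := by
  have h1 : ∀ v : V4, (v.1 + f ⬝ᵥ v.2, v.2) = (v.1, (A : Matrix (Fin 3) (Fin 3) (ZMod 2)) *ᵥ v.2) :=
    fun v => congrArg (fun T : V4 ≃ₗ[ZMod 2] V4 => T v) h
  constructor
  · funext i
    have h2 := congrArg Prod.fst (h1 (0, Pi.single i 1))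
    have h3 : (0 : ZMod 2) + f ⬝ᵥ Pi.single i 1 = 0 := h2
    rwa [zero_add, dotProduct_single, mul_one] at h3
  · apply Subtype.ext
    apply Matrix.toLin'.injective
    apply LinearMap.ext
    intro v
    have h2 := congrArg Prod.snd (h1 (0, v))
    show (A : Matrix (Fin 3) (Fin 3) (ZMod 2)) *ᵥ v = (1 : Matrix (Fin 3) (Fin 3) (ZMod 2)) *ᵥ v
    rw [one_mulVec]
    exact h2.symm

theorem decomp {α : V4 ≃ₗ[ZMod 2] V4} (h : α (1, 0) = (1, 0)) :
    ∃ (f : Fin 3 → ZMod 2) (A : SpecialLinearGroup (Fin 3) (ZMod 2)), α = tv f * blk A := by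
  let B : (Fin 3 → ZMod 2) →ₗ[ZMod 2] (Fin 3 → ZMod 2) :=
    (LinearMap.snd (ZMod 2) (ZMod 2) (Fin 3 → ZMod 2)).comp
      ((α : V4 →ₗ[ZMod 2] V4).comp (LinearMap.inr (ZMod 2) (ZMod 2) (Fin 3 → ZMod 2)))
  let φ : (Fin 3 → ZMod 2) →ₗ[ZMod 2] (ZMod 2) :=
    (LinearMap.fst (ZMod 2) (ZMod 2) (Fin 3 → ZMod 2)).comp
      ((α : V4 →ₗ[ZMod 2] V4).comp (LinearMap.inr (ZMod 2) (ZMod 2) (Fin 3 → ZMod 2)))
  have hαv : ∀ v, α (0, v) = (φ v, B v) := fun v => rfl
  have hα : ∀ c v, α (c, v) = (c + φ v, B v) := by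
    intro c v
    have h1 : ((c, v) : V4) = c • (1, 0) + (0, v) := by ext <;> simp
    rw [h1, map_add, map_smul, h, hαv]
    ext <;> simp
  have hdet : (LinearMap.toMatrix' B).det ≠ 0 := by
    intro h0
    obtain ⟨v, hv, hv2⟩ := Matrix.exists_mulVec_eq_zero_iff.2 h0
    rw [LinearMap.toMatrix'_mulVec] at hv2
    apply hv
    have h2 : α (φ v, v) = α (0, 0) := by
      rw [hα, hv2, CharTwo.add_self_eq_zero]
      exact (map_zero α).symm
    exact congrArg Prod.snd (α.injective h2)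
  have hdet1 : (LinearMap.toMatrix' B).det = 1 := by
    have key : ∀ y : ZMod 2, y ≠ 0 → y = 1 := by decide
    exact key _ hdet
  let A : SpecialLinearGroup (Fin 3) (ZMod 2) := ⟨LinearMap.toMatrix' B, hdet1⟩
  have hA : ∀ v, (A : Matrix (Fin 3) (Fin 3) (ZMod 2)) *ᵥ v = B v := fun v => LinearMap.toMatrix'_mulVec B v
  let ψ : (Fin 3 → ZMod 2) →ₗ[ZMod 2] (ZMod 2) :=
    φ.comp (Matrix.toLin' ((A⁻¹ : SpecialLinearGroup (Fin 3) (ZMod 2)) : Matrix (Fin 3) (Fin 3) (ZMod 2)))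
  refine ⟨fun i => ψ (Pi.single i 1), A, ?_⟩
  have hψ : ∀ w, (fun i => ψ (Pi.single i 1)) ⬝ᵥ w = ψ w := by
    intro w
    conv_rhs => rw [← Finset.univ_sum_single w, map_sum]
    rw [dotProduct]
    apply Finset.sum_congr rfl
    intro i _
    have h3 : (Pi.single i (w i) : Fin 3 → ZMod 2) = w i • Pi.single i 1 := by
      rw [← Pi.single_smul, smul_eq_mul, mul_one]
    rw [h3, map_smul, smul_eq_mul, mul_comm]
  apply LinearEquiv.ext
  rintro ⟨c, v⟩
  rw [LinearEquiv.mul_apply, blk_apply, tv_apply, hα, hA, hψ]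
  have h4 : ψ (B v) = φ v := by
    show φ (((A⁻¹ : SpecialLinearGroup (Fin 3) (ZMod 2)) : Matrix (Fin 3) (Fin 3) (ZMod 2)) *ᵥ (B v)) = φ v
    have h5 : ((A⁻¹ : SpecialLinearGroup (Fin 3) (ZMod 2)) : Matrix (Fin 3) (Fin 3) (ZMod 2)) *
        (A : Matrix (Fin 3) (Fin 3) (ZMod 2)) = 1 := congrArg Subtype.val (inv_mul_cancel A)
    rw [← hA v, mulVec_mulVec, h5, one_mulVec]
  rw [h4]

end Cfsg.Agent.M24X.Cent8
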