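import Cfsg.Agent.M24X.Cent8A
import Cfsg.Agent.H90.Large
import Cfsg.Agent.S5421
import Cfsg.Agent.S0249
import Cfsg.Agent.Fus.QDWMain
import Cfsg.Prelude.Def_Transfer

/-! A group with involution centralizer `2^(1+6) : L_3(2)` given in coordinates. -/

set_option autoImplicit false

namespace Cfsg.Agent.M24X.Cent8

open Cfsg Matrix Cfsg.Agent.H90

theorem sl32 : IsSimpleGroup (SpecialLinearGroup (Fin 3) (ZMod 2)) ∧
    Nat.card (SpecialLinearGroup (Fin 3) (ZMod 2)) = 168 := by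
  have hcen : Nat.card (Subgroup.center (SpecialLinearGroup (Fin 3) (ZMod 2))) = 1 := by
    rw [H4.card_center_SL 3 (by norm_num), ZMod.card]; decide
  have hcen' : Subgroup.center (SpecialLinearGroup (Fin 3) (ZMod 2)) = ⊥ := Subgroup.card_eq_one.1 hcen
  let E : SpecialLinearGroup (Fin 3) (ZMod 2) ≃* ProjectiveSpecialLinearGroup (Fin 3) (ZMod 2) :=
    MulEquiv.ofBijective (QuotientGroup.mk' (Subgroup.center (SpecialLinearGroup (Fin 3) (ZMod 2)))) ⟨by
      rw [← MonoidHom.ker_eq_bot_iff, QuotientGroup.ker_mk', hcen'],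
      QuotientGroup.mk'_surjective _⟩
  have hs := Cfsg.Agent.S0249.result (F := ZMod 2) 3 le_rfl
  have hnt : Nontrivial (SpecialLinearGroup (Fin 3) (ZMod 2)) := E.toEquiv.nontrivial
  refine ⟨IsSimpleGroup.isSimpleGroup_of_surjective E.symm.toMonoidHom E.symm.surjective, ?_⟩
  rw [QDW.card_SL3, ZMod.card]; norm_num

/-- coordinates for the centralizer of an involution -/
structure Dat (G : Type*) [Group G] (z : G) where
  t : V4 → G
  Θ : (V4 ≃ₗ[ZMod 2] V4) →* G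
  t_add : ∀ v w, t (v + w) = t v * t w
  t_inj : Function.Injective t
  t_z : t (1, 0) = z
  Θ_inj : Function.Injective Θ
  conj : ∀ α v, Θ α * t v * (Θ α)⁻¹ = t (α v)
  uniq : ∀ v α, t v = Θ α → v = 0
  cent : ∀ g, g * z = z * g → ∃ v α, g = t v * Θ α

namespace Dat

variable {G : Type*} [Group G] {z : G} (D : Dat G z)

include D

theorem t_zero : D.t 0 = 1 := by
  have h := D.t_add 0 0
  rw [add_zero] at h
  exact left_eq_mul.1 h

omit [Group G] D in
theorem v_add_self (v : V4) : v + v = 0 := by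
  ext i
  · exact CharTwo.add_self_eq_zero _
  · exact CharTwo.add_self_eq_zero _

theorem t_sq (v : V4) : D.t v * D.t v = 1 := by
  rw [← D.t_add, v_add_self, D.t_zero]

theorem t_inv (v : V4) : (D.t v)⁻¹ = D.t v := inv_eq_of_mul_eq_one_right (D.t_sq v)

theorem t_comm (v w : V4) : D.t v * D.t w = D.t w * D.t v := by
  rw [← D.t_add, ← D.t_add, add_comm]

theorem z_t (v : V4) : z * D.t v = D.t v * z := by
  have h := D.t_comm (1, 0) v
  rwa [D.t_z] at h

theorem Θ_t (α : V4 ≃ₗ[ZMod 2] V4) (v : V4) : D.Θ α * D.t v = D.t (α v) * D.Θ α := by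
  rw [← D.conj]; group

theorem zz : z * z = 1 := by rw [← D.t_z, D.t_sq]

theorem z_ne : z ≠ 1 := by
  intro h
  rw [← D.t_z, ← D.t_zero] at h
  have := congrArg Prod.fst (D.t_inj h)
  revert this; decide

theorem Θ_z {α : V4 ≃ₗ[ZMod 2] V4} (h : α (1, 0) = (1, 0)) : D.Θ α * z = z * D.Θ α := by
  have h1 := D.Θ_t α (1, 0)
  rw [h, D.t_z] at h1
  exact h1

theorem mem_cent {g : G} : g * z = z * g ↔ ∃ v f A, g = D.t v * (D.Θ (tv f) * D.Θ (blk A)) := by
  constructor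
  · intro h
    obtain ⟨v, α, rfl⟩ := D.cent g h
    have h1 : D.t (α (1, 0)) = D.t (1, 0) := by
      rw [← D.conj, D.t_z, mul_inv_eq_iff_eq_mul]
      have h2 : D.t v * (D.Θ α * z) = D.t v * (z * D.Θ α) := by
        rw [← mul_assoc, h, ← mul_assoc, ← mul_assoc, D.z_t]
      exact mul_left_cancel h2
    obtain ⟨f, A, hα⟩ := decomp (D.t_inj h1)
    exact ⟨v, f, A, by rw [hα, map_mul]⟩
  · rintro ⟨v, f, A, rfl⟩
    have h1 : (tv f * blk A : V4 ≃ₗ[ZMod 2] V4) (1, 0) = (1, 0) := by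
      rw [LinearEquiv.mul_apply, blk_apply, tv_apply, mulVec_zero, dotProduct_zero, add_zero]
    rw [← map_mul, mul_assoc, D.Θ_z h1, ← mul_assoc, ← D.z_t, mul_assoc]

/-- elements of the extraspecial group -/
def q (v : V4) (f : Fin 3 → ZMod 2) : G := D.t v * D.Θ (tv f)

theorem q_mul (v w : V4) (f g : Fin 3 → ZMod 2) : D.q v f * D.q w g = D.q (v + tv f w) (f + g) := by
  unfold q
  rw [tv_add, map_mul, D.t_add]
  calc D.t v * D.Θ (tv f) * (D.t w * D.Θ (tv g)) = D.t v * (D.Θ (tv f) * D.t w) * D.Θ (tv g) := by group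
    _ = D.t v * D.t (tv f w) * (D.Θ (tv f) * D.Θ (tv g)) := by rw [D.Θ_t]; group

omit [Group G] D in
theorem tv_zero : tv 0 = 1 := by
  apply LinearEquiv.ext
  intro v
  rw [tv_apply, zero_dotProduct, add_zero]
  rfl

theorem q_zero : D.q 0 0 = 1 := by
  unfold q
  rw [D.t_zero, tv_zero, map_one, one_mul]

omit [Group G] D in
theorem tv_sq (f : Fin 3 → ZMod 2) (v : V4) : tv f (tv f v) = v := by
  rw [← LinearEquiv.mul_apply, ← tv_add]
  have : f + f = 0 := by funext i; exact CharTwo.add_self_eq_zero _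
  rw [this, tv_zero]; rfl

omit [Group G] D in
theorem f_add_self (f : Fin 3 → ZMod 2) : f + f = 0 := by funext i; exact CharTwo.add_self_eq_zero _

theorem q_inv (v : V4) (f : Fin 3 → ZMod 2) : (D.q v f)⁻¹ = D.q (tv f v) f := by
  apply inv_eq_of_mul_eq_one_right
  rw [D.q_mul, tv_sq, v_add_self, f_add_self, D.q_zero]

theorem q_inj {v w : V4} {f g : Fin 3 → ZMod 2} (h : D.q v f = D.q w g) : v = w ∧ f = g := by
  have h1 : D.t (w + v) = D.Θ (tv g * (tv f)⁻¹) := by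
    rw [D.t_add, map_mul, map_inv]
    have h2 : D.t v * D.Θ (tv f) = D.t w * D.Θ (tv g) := h
    have h3 : D.t v = D.t w * D.Θ (tv g) * (D.Θ (tv f))⁻¹ := by rw [← h2]; group
    rw [h3, ← mul_assoc, ← mul_assoc, D.t_sq, one_mul]
  have h2 := D.uniq _ _ h1
  have h3 : v = w := by
    have := congrArg (fun x => w + x) h2
    simp only [← add_assoc] at this
    rw [v_add_self, zero_add, add_zero] at this
    exact this
  subst h3
  have h4 : D.Θ (tv f) = D.Θ (tv g) := mul_left_cancel h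
  have h5 := D.Θ_inj h4
  refine ⟨rfl, ?_⟩
  funext i
  have h6 := congrArg (fun T : V4 ≃ₗ[ZMod 2] V4 => (T (0, Pi.single i 1)).1) h5
  have h7 : (0 : ZMod 2) + f ⬝ᵥ Pi.single i 1 = 0 + g ⬝ᵥ Pi.single i 1 := h6
  rwa [zero_add, zero_add, dotProduct_single, dotProduct_single, mul_one, mul_one] at h7

/-- the extraspecial group -/
def Q : Subgroup G where
  carrier := {g | ∃ v f, D.q v f = g}
  mul_mem' := by
    rintro _ _ ⟨v, f, rfl⟩ ⟨w, g, rfl⟩
    exact ⟨_, _, (D.q_mul v w f g).symm⟩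
  one_mem' := ⟨0, 0, D.q_zero⟩
  inv_mem' := by
    rintro _ ⟨v, f, rfl⟩
    exact ⟨_, _, (D.q_inv v f).symm⟩

theorem mem_Q {g : G} : g ∈ D.Q ↔ ∃ v f, D.q v f = g := Iff.rfl

theorem t_mem (v : V4) : D.t v ∈ D.Q := ⟨v, 0, by unfold q; rw [tv_zero, map_one, mul_one]⟩

theorem tv_mem (f : Fin 3 → ZMod 2) : D.Θ (tv f) ∈ D.Q := ⟨0, f, by unfold q; rw [D.t_zero, one_mul]⟩

theorem card_Q : Nat.card D.Q = 2 ^ 7 := by
  let F : V4 × (Fin 3 → ZMod 2) → D.Q := fun p => ⟨D.q p.1 p.2, _, _, rfl⟩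
  have hF : Function.Bijective F := by
    constructor
    · rintro ⟨v, f⟩ ⟨w, g⟩ h
      obtain ⟨h1, h2⟩ := D.q_inj (congrArg Subtype.val h)
      exact Prod.ext h1 h2
    · rintro ⟨g, v, f, h⟩
      exact ⟨(v, f), Subtype.ext h⟩
  rw [← Nat.card_congr (Equiv.ofBijective F hF)]
  simp

theorem q_comm (v w : V4) (f g : Fin 3 → ZMod 2) :
    D.q v f * D.q w g = D.t (f ⬝ᵥ w.2 + g ⬝ᵥ v.2, 0) * (D.q w g * D.q v f) := by
  rw [D.q_mul, D.q_mul, add_comm g f]
  unfold q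
  rw [← mul_assoc, ← D.t_add]
  congr 2
  rw [tv_apply, tv_apply]
  have h2 : ∀ x : ZMod 2, x + x = 0 := CharTwo.add_self_eq_zero
  ext i
  · show v.1 + (w.1 + f ⬝ᵥ w.2) = f ⬝ᵥ w.2 + g ⬝ᵥ v.2 + (w.1 + (v.1 + g ⬝ᵥ v.2))
    linear_combination - h2 (g ⬝ᵥ v.2)
  · show v.2 i + w.2 i = 0 + (w.2 i + v.2 i)
    ring

theorem t_cases (c : ZMod 2) : D.t (c, 0) = 1 ∨ D.t (c, 0) = z := by
  have h : c = 0 ∨ c = 1 := by revert c; decide
  rcases h with rfl | rfl
  · left; exact D.t_zero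
  · right; exact D.t_z

theorem xs : XS D.Q z where
  mem := ⟨(1, 0), 0, by unfold q; rw [tv_zero, map_one, mul_one, D.t_z]⟩
  ne_one := D.z_ne
  sq := D.zz
  central := by
    rintro _ ⟨v, f, rfl⟩
    rw [D.mem_cent]
    exact ⟨v, f, 1, by unfold q; rw [map_one, map_one, mul_one]⟩
  comm := by
    rintro _ ⟨v, f, rfl⟩ _ ⟨w, g, rfl⟩
    rw [D.q_comm]
    rcases D.t_cases (f ⬝ᵥ w.2 + g ⬝ᵥ v.2) with h | h <;> rw [h]
    · left; rw [one_mul]
    · right; rfl
  nondeg := by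
    rintro _ ⟨v, f, rfl⟩ h
    have h1 : ∀ w g, f ⬝ᵥ w + g ⬝ᵥ v.2 = 0 := by
      intro w g
      have h2 := h (D.q (0, w) g) ⟨_, _, rfl⟩
      rw [D.q_comm] at h2
      have h3 : D.t (f ⬝ᵥ w + g ⬝ᵥ v.2, 0) = 1 := mul_eq_right.1 h2
      rw [← D.t_zero] at h3
      exact congrArg Prod.fst (D.t_inj h3)
    have hf : f = 0 := by
      funext i
      have := h1 (Pi.single i 1) 0
      rwa [zero_dotProduct, add_zero, dotProduct_single, mul_one] at this
    have hv : v.2 = 0 := by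
      funext i
      have := h1 0 (Pi.single i 1)
      rwa [dotProduct_zero, zero_add, single_dotProduct, one_mul] at this
    have hq : D.q v f = D.t (v.1, 0) := by
      unfold q
      rw [hf, tv_zero, map_one, mul_one, ← hv]
    rw [hq]
    exact D.t_cases _

omit [Group G] D in
theorem blk_tv (A : SpecialLinearGroup (Fin 3) (ZMod 2)) (g : Fin 3 → ZMod 2) :
    blk A * (tv g * blk A⁻¹) =
      tv (g ᵥ* ((A⁻¹ : SpecialLinearGroup (Fin 3) (ZMod 2)) : Matrix (Fin 3) (Fin 3) (ZMod 2))) := by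
  apply LinearEquiv.ext
  intro u
  have h5 : (A : Matrix (Fin 3) (Fin 3) (ZMod 2)) *
    ((A⁻¹ : SpecialLinearGroup (Fin 3) (ZMod 2)) : Matrix (Fin 3) (Fin 3) (ZMod 2)) = 1 :=
    congrArg Subtype.val (mul_inv_cancel A)
  rw [LinearEquiv.mul_apply, LinearEquiv.mul_apply, blk_apply, blk_apply, tv_apply, tv_apply]
  apply Prod.ext
  · show u.1 + _ = u.1 + _
    rw [dotProduct_mulVec]
  · show (A : Matrix (Fin 3) (Fin 3) (ZMod 2)) *ᵥ _ = u.2
    rw [mulVec_mulVec, h5, one_mulVec]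

theorem pl : PL D.Q z where
  toXS := D.xs
  cent := by
    intro g hg
    have hz := hg z D.xs.mem
    obtain ⟨v, α, rfl⟩ := D.cent g hz
    have h1 : α = 1 := by
      apply LinearEquiv.ext
      intro w
      apply D.t_inj
      have h2 := hg _ (D.t_mem w)
      rw [mul_assoc, D.Θ_t, ← mul_assoc, D.t_comm, mul_assoc, ← mul_assoc (D.t w)] at h2
      have h3 : D.t (α w) * (D.t v * D.Θ α) = D.t w * (D.t v * D.Θ α) := by rw [h2]; group
      exact mul_right_cancel h3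
    subst h1
    rw [map_one, mul_one] at hg ⊢
    rcases D.xs.nondeg _ (D.t_mem v) hg with h | h
    · left; exact h
    · right; exact h
  norm := by
    intro g hg
    obtain ⟨v, f, A, rfl⟩ := D.mem_cent.1 hg
    have hK : ∀ x ∈ D.Q, D.Θ (blk A) * x * (D.Θ (blk A))⁻¹ ∈ D.Q := by
      rintro _ ⟨w, g, rfl⟩
      refine ⟨blk A w, g ᵥ* ((A⁻¹ : SpecialLinearGroup (Fin 3) (ZMod 2)) : Matrix (Fin 3) (Fin 3) (ZMod 2)), ?_⟩
      unfold q
      have h1 : D.Θ (blk A) * (D.t w * D.Θ (tv g)) * (D.Θ (blk A))⁻¹ =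
        (D.Θ (blk A) * D.t w) * D.Θ (tv g) * (D.Θ (blk A))⁻¹ := by group
      rw [h1, D.Θ_t, ← map_inv D.Θ, ← map_inv blk, mul_assoc, mul_assoc, ← map_mul, ← map_mul, blk_tv]
    intro x hx
    have h1 : D.t v * (D.Θ (tv f) * D.Θ (blk A)) * x * (D.t v * (D.Θ (tv f) * D.Θ (blk A)))⁻¹ =
      (D.t v * D.Θ (tv f)) * (D.Θ (blk A) * x * (D.Θ (blk A))⁻¹) * (D.t v * D.Θ (tv f))⁻¹ := by group
    rw [h1]
    have h2 : D.t v * D.Θ (tv f) ∈ D.Q := ⟨v, f, rfl⟩
    exact D.Q.mul_mem (D.Q.mul_mem h2 (hK x hx)) (D.Q.inv_mem h2)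

theorem extra : IsExtraspecial 2 D.Q := by
  apply D.xs.isExtraspecial (D.t_mem (0, Pi.single 0 1)) (D.tv_mem (Pi.single 0 1))
  intro h
  rw [D.Θ_t] at h
  have h1 := D.t_inj (mul_right_cancel h)
  have h2 := congrArg Prod.fst h1
  rw [tv_apply, dotProduct_single, mul_one] at h2
  have h3 : (0 : ZMod 2) = 0 + 1 := h2
  revert h3; decide

/-- the complement -/
def K : Subgroup G := (D.Θ.comp blk).range

theorem K_le : D.K ≤ Subgroup.centralizer ({z} : Set G) := by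
  rintro _ ⟨A, rfl⟩
  rw [Subgroup.mem_centralizer_singleton_iff, D.mem_cent]
  exact ⟨0, 0, A, by rw [D.t_zero, tv_zero, map_one, one_mul, one_mul]; rfl⟩

theorem Q_le : D.Q ≤ Subgroup.centralizer ({z} : Set G) := by
  intro x hx
  rw [Subgroup.mem_centralizer_singleton_iff]
  exact D.xs.central x hx

theorem Q_inf_K : D.Q ⊓ D.K = ⊥ := by
  rw [eq_bot_iff]
  rintro _ ⟨⟨v, f, h⟩, ⟨A, rfl⟩⟩
  rw [Subgroup.mem_bot]
  have h1 : D.t v * D.Θ (tv f) = D.Θ (blk A) := h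
  have h2 : D.t v = D.Θ (blk A * (tv f)⁻¹) := by rw [map_mul, map_inv, ← h1]; group
  have hv := D.uniq _ _ h2
  rw [hv, D.t_zero, one_mul] at h1
  have h3 := D.Θ_inj h1
  obtain ⟨-, h5⟩ := tv_eq_blk h3
  rw [h5, map_one]

theorem Q_sup_K : D.Q ⊔ D.K = Subgroup.centralizer ({z} : Set G) := by
  apply le_antisymm (sup_le D.Q_le D.K_le)
  intro g hg
  rw [Subgroup.mem_centralizer_singleton_iff, D.mem_cent] at hg
  obtain ⟨v, f, A, rfl⟩ := hg
  rw [← mul_assoc]
  exact Subgroup.mul_mem_sup ⟨v, f, rfl⟩ ⟨A, rfl⟩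

theorem K_equiv : Nonempty (D.K ≃* SpecialLinearGroup (Fin 3) (ZMod 2)) :=
  ⟨(MonoidHom.ofInjective (f := D.Θ.comp blk) (D.Θ_inj.comp blk_injective)).symm⟩

theorem pcore [Finite G] : (pCore 2 (Subgroup.centralizer ({z} : Set G))).map (Subgroup.centralizer ({z} : Set G)).subtype =
    D.Q := by
  set C := Subgroup.centralizer ({z} : Set G) with hC
  set P := (pCore 2 C).map C.subtype with hP
  have hPC : P ≤ C := by
    rintro _ ⟨x, -, rfl⟩
    exact x.2
  have hPn : ∀ g ∈ C, ∀ x ∈ P, g * x * g⁻¹ ∈ P := by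
    rintro g hg _ ⟨x, hx, rfl⟩
    exact ⟨⟨g, hg⟩ * x * ⟨g, hg⟩⁻¹, (inferInstance : (pCore 2 C).Normal).conj_mem _ hx _, rfl⟩
  have hPp : IsPGroup 2 P := (H90.isPGroup_pCore 2 C).map _
  have hQP : D.Q ≤ P := by
    have h1 : (D.Q.subgroupOf C).Normal := by
      constructor
      intro x hx g
      rw [Subgroup.mem_subgroupOf] at hx ⊢
      exact D.pl.norm g (Subgroup.mem_centralizer_singleton_iff.1 g.2) x hx
    have h2 : IsPGroup 2 (D.Q.subgroupOf C) := by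
      intro x
      obtain ⟨k, hk⟩ := D.xs.isPGroup ⟨x.1, x.2⟩
      refine ⟨k, ?_⟩
      apply Subtype.ext
      apply Subtype.ext
      have hk' := congrArg (fun y : D.Q => (y : G)) hk
      simp only [Subgroup.coe_pow, Subgroup.coe_one] at hk' ⊢
      exact hk'
    have h3 : D.Q.subgroupOf C ≤ pCore 2 C := le_sSup ⟨h1, h2⟩
    intro x hx
    exact ⟨⟨x, D.Q_le hx⟩, h3 hx, rfl⟩
  apply le_antisymm _ hQP
  -- intersection with the complement
  have hs := sl32.1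
  obtain ⟨e⟩ := D.K_equiv
  have hKs : IsSimpleGroup D.K := by
    have : Nontrivial D.K := e.toEquiv.nontrivial
    exact IsSimpleGroup.isSimpleGroup_of_surjective e.symm.toMonoidHom e.symm.surjective
  have hn : (P.subgroupOf D.K).Normal := by
    constructor
    intro x hx g
    rw [Subgroup.mem_subgroupOf] at hx ⊢
    exact hPn g (D.K_le g.2) x hx
  have hbot : P.subgroupOf D.K = ⊥ := by
    rcases hn.eq_bot_or_eq_top with h | h
    · exact h
    · exfalso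
      rw [Subgroup.subgroupOf_eq_top] at h
      have h1 : IsPGroup 2 D.K := hPp.to_le h
      obtain ⟨k, hk⟩ := IsPGroup.iff_card.1 h1
      rw [Nat.card_congr e.toEquiv, sl32.2] at hk
      have h7 : 7 ∣ 2 ^ k := by rw [← hk]; decide
      have := (Nat.Prime.dvd_of_dvd_pow (by norm_num : Nat.Prime 7) h7)
      omega
  intro x hx
  have hxC := hPC hx
  rw [hC, ← D.Q_sup_K] at hxC
  have hxC' : x * z = z * x := Subgroup.mem_centralizer_singleton_iff.1 (hPC hx)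
  obtain ⟨v, f, A, rfl⟩ := D.mem_cent.1 hxC'
  have h1 : D.t v * D.Θ (tv f) ∈ D.Q := ⟨v, f, rfl⟩
  have h2 : D.Θ (blk A) ∈ P := by
    have h3 : D.Θ (blk A) = (D.t v * D.Θ (tv f))⁻¹ * (D.t v * (D.Θ (tv f) * D.Θ (blk A))) := by group
    rw [h3]
    exact P.mul_mem (P.inv_mem (hQP h1)) hx
  have h4 : (⟨D.Θ (blk A), ⟨A, rfl⟩⟩ : D.K) ∈ P.subgroupOf D.K := h2
  rw [hbot, Subgroup.mem_bot] at h4
  have h5 : D.Θ (blk A) = 1 := congrArg Subtype.val h4
  rw [h5, mul_one]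
  exact h1

/-- the elementary abelian subgroup -/
def E : Subgroup G where
  carrier := {g | ∃ v, D.t v = g}
  mul_mem' := by
    rintro _ _ ⟨v, rfl⟩ ⟨w, rfl⟩
    exact ⟨_, D.t_add v w⟩
  one_mem' := ⟨0, D.t_zero⟩
  inv_mem' := by
    rintro _ ⟨v, rfl⟩
    exact ⟨_, (D.t_inv v).symm⟩

theorem card_E : Nat.card D.E = 2 ^ 4 := by
  let F : V4 → D.E := fun v => ⟨D.t v, _, rfl⟩
  have hF : Function.Bijective F := by
    constructor
    · intro v w h
      exact D.t_inj (congrArg Subtype.val h)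
    · rintro ⟨g, v, h⟩
      exact ⟨v, Subtype.ext h⟩
  rw [← Nat.card_congr (Equiv.ofBijective F hF)]
  simp

theorem E_elem : IsElementaryAbelian 2 D.E := by
  refine ⟨⟨⟨?_⟩⟩, ?_⟩
  · rintro ⟨_, v, rfl⟩ ⟨_, w, rfl⟩
    exact Subtype.ext (D.t_comm v w)
  · rintro _ ⟨v, rfl⟩
    rw [sq, D.t_sq]

theorem E_le : D.E ≤ D.Q := by
  rintro _ ⟨v, rfl⟩
  exact D.t_mem v

/-- The main conclusion. -/
theorem main [Finite G] (hlarge : ∀ g : G, g * D.t (0, Pi.single 0 1) = D.t (0, Pi.single 0 1) * g →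
      ∀ v, ∃ w, D.t w = g * D.t v * g⁻¹) (Q' : Subgroup G)
    (hQ' : Q' = (pCore 2 (Subgroup.centralizer ({z} : Set G))).map (Subgroup.centralizer ({z} : Set G)).subtype) :
    IsExtraspecial 2 Q' ∧ Nat.card Q' = 2 ^ 7 ∧
      (∃ E : Subgroup G, E ≤ Q' ∧ IsElementaryAbelian 2 E ∧ Nat.card E = 2 ^ 4) ∧
      IsLargeExtraspecial Q' ∧ ∃ K : Subgroup G, K ≤ Subgroup.centralizer ({z} : Set G) ∧ Q' ⊓ K = ⊥ ∧
        Q' ⊔ K = Subgroup.centralizer ({z} : Set G) ∧
        Nonempty (K ≃* SpecialLinearGroup (Fin 3) (ZMod 2)) := by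
  rw [D.pcore] at hQ'
  subst hQ'
  refine ⟨D.extra, D.card_Q, ⟨D.E, D.E_le, D.E_elem, D.card_E⟩, ?_, D.K, D.K_le, D.Q_inf_K, D.Q_sup_K, D.K_equiv⟩
  set b := D.t (0, Pi.single 0 1) with hb
  have hbne : (0 : V4).2 ≠ (Pi.single 0 1 : Fin 3 → ZMod 2) := by
    intro h
    have := congrFun h 0
    rw [Pi.single_eq_same] at this
    have h3 : (0 : ZMod 2) = 1 := this
    revert h3; decide
  have hb1 : b ≠ 1 := by
    intro h
    rw [hb, ← D.t_zero] at h
    exact hbne (congrArg Prod.snd (D.t_inj h)).symm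
  have hbz : b ≠ z := by
    intro h
    exact hbne (congrArg Prod.snd (D.t_inj (h.trans D.t_z.symm))).symm
  have hF : Fact (Nat.Prime 2) := ⟨Nat.prime_two⟩
  apply Cfsg.Agent.S5421.result D.Q D.extra D.pl.centralizer_eq D.pl.le_normalizer b (D.t_mem _)
  · rw [D.pl.center_eq]
    intro h
    have h1 : Subgroup.zpowers z ≤ D.E := by
      rw [Subgroup.zpowers_le]; exact ⟨_, D.t_z⟩
    rcases D.xs.nondeg b (D.t_mem _) (fun y hy => by
      obtain ⟨k, hk⟩ := h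
      have hk' : z ^ k = b := hk
      have hc : Commute z y := (D.xs.central y hy).symm
      rw [← hk']
      exact hc.zpow_left k) with h | h
    · exact hb1 h
    · exact hbz h
  · apply orderOf_eq_prime
    · rw [sq, hb, D.t_sq]
    · exact hb1
  · rw [D.pl.center_eq, Subgroup.zpowers_le]
    have hEC : D.E ≤ Subgroup.centralizer ({b} : Set G) := by
      rintro _ ⟨v, rfl⟩
      rw [Subgroup.mem_centralizer_singleton_iff]
      exact D.t_comm _ _
    have h1 : (D.E.subgroupOf (Subgroup.centralizer ({b} : Set G))).Normal := by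
      constructor
      rintro x hx g
      rw [Subgroup.mem_subgroupOf] at hx ⊢
      obtain ⟨v, hv⟩ := hx
      obtain ⟨w, hw⟩ := hlarge g (Subgroup.mem_centralizer_singleton_iff.1 g.2) v
      exact ⟨w, by rw [hw, hv]; rfl⟩
    have h2 : IsPGroup 2 (D.E.subgroupOf (Subgroup.centralizer ({b} : Set G))) := by
      intro x
      obtain ⟨v, hv⟩ := x.2
      refine ⟨1, ?_⟩
      apply Subtype.ext
      apply Subtype.ext
      show ((x : Subgroup.centralizer ({b} : Set G)) : G) ^ (2 ^ 1) = 1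
      have hv' : D.t v = ((x : Subgroup.centralizer ({b} : Set G)) : G) := hv
      rw [pow_one, sq, ← hv', D.t_sq]
    have h3 : D.E.subgroupOf (Subgroup.centralizer ({b} : Set G)) ≤ pCore 2 _ := le_sSup ⟨h1, h2⟩
    have hzE : z ∈ D.E := ⟨_, D.t_z⟩
    exact ⟨⟨z, hEC hzE⟩, h3 hzE, rfl⟩

end Dat

end Cfsg.Agent.M24X.Cent8
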