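import Cfsg.Agent.M24X.Fix
import Cfsg.Agent.Golay.Simple
import Cfsg.Agent.Golay.OrbThree
import Cfsg.Agent.Golay.OrbC

/-!
# Pointwise stabilisers in `M24`: orders, orbit counting (owner: helper92)
-/

set_option autoImplicit false

namespace Cfsg.Agent.M24X

open Cfsg MulAction Cfsg.Agent.Golay Cfsg.Agent.Golay.Orb
open scoped Pointwise

/-- The pointwise stabiliser of a set of points. -/
def FX (s : Finset GolayPt) : Subgroup M24 where
  carrier := {g | ∀ p ∈ s, g • p = p}
  mul_mem' := by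
    intro a b ha hb p hp
    rw [mul_smul, hb p hp, ha p hp]
  one_mem' := fun p _ => one_smul _ p
  inv_mem' := by
    intro a ha p hp
    rw [inv_smul_eq_iff, ha p hp]

theorem mem_FX {s : Finset GolayPt} {g : M24} : g ∈ FX s ↔ ∀ p ∈ s, g • p = p := Iff.rfl

theorem FX_anti {s t : Finset GolayPt} (h : s ⊆ t) : FX t ≤ FX s := fun _ hg p hp => hg p (h hp)

theorem FX_insert (s : Finset GolayPt) (y : GolayPt) : FX (insert y s) = FX s ⊓ stabilizer M24 y := by
  ext g
  rw [Subgroup.mem_inf, mem_FX, mem_FX, mem_stabilizer_iff]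
  simp only [Finset.mem_insert, forall_eq_or_imp]
  tauto

theorem FX_empty : FX ∅ = ⊤ := by
  ext g
  simp [mem_FX]

/-- orbit counting for a subgroup of `M24` -/
theorem card_orb (J : Subgroup M24) (y : GolayPt) :
    (orbit J y).ncard * Nat.card (J ⊓ stabilizer M24 y : Subgroup M24) = Nat.card J := by
  have h1 : (stabilizer J y).map J.subtype = J ⊓ stabilizer M24 y := by
    ext g
    rw [Subgroup.mem_map, Subgroup.mem_inf]
    constructor
    · rintro ⟨h, hh, rfl⟩
      exact ⟨h.2, hh⟩
    · rintro ⟨h1, h2⟩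
      exact ⟨⟨g, h1⟩, h2, rfl⟩
  rw [← h1, Subgroup.card_map_of_injective J.subtype_injective, ← index_stabilizer]
  exact Subgroup.index_mul_card _

/-- `M24` is transitive outside at most four fixed points. -/
theorem exists_FX_map {s : Finset GolayPt} (hs : s.card ≤ 4) {q y : GolayPt} (hq : q ∉ s) (hy : y ∉ s) :
    ∃ g ∈ FX s, g • q = y := by
  obtain ⟨x, hx, hxs, hsx⟩ := exists_tuple (s := s) (k := s.card) rfl
  have inj : ∀ z : GolayPt, z ∉ s → Function.Injective (Fin.snoc (α := fun _ => GolayPt) x z) := by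
    intro z hz
    apply Fin.snoc_injective_of_injective hx
    rintro ⟨i, rfl⟩
    exact hz (hxs i)
  have := M24_transitive_k (s.card + 1) (by omega)
  rw [isMultiplyPretransitive_iff] at this
  obtain ⟨g, hg⟩ := this ⟨_, inj q hq⟩ ⟨_, inj y hy⟩
  have h1 : ∀ i, g • (Fin.snoc (α := fun _ => GolayPt) x q i : GolayPt)
      = Fin.snoc (α := fun _ => GolayPt) x y i := fun i => DFunLike.congr_fun hg i
  refine ⟨g, ?_, ?_⟩
  · intro p hp
    obtain ⟨i, rfl⟩ := hsx p hp
    have := h1 i.castSucc
    simpa using this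
  · have := h1 (Fin.last _)
    simpa using this

theorem orbit_FX {s : Finset GolayPt} (hs : s.card ≤ 4) {q : GolayPt} (hq : q ∉ s) :
    orbit (FX s) q = {y | y ∉ s} := by
  ext y
  constructor
  · rintro ⟨g, rfl⟩ h
    apply hq
    have h1 : (g : M24) • q ∈ s := h
    have h2 := g.2 _ h1
    have h3 := smul_left_cancel _ h2
    rwa [h3] at h1
  · intro hy
    obtain ⟨g, hg, hgq⟩ := exists_FX_map hs hq hy
    exact ⟨⟨g, hg⟩, hgq⟩

theorem card_FX_step {s : Finset GolayPt} (hs : s.card ≤ 4) {q : GolayPt} (hq : q ∉ s) :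
    (24 - s.card) * Nat.card (FX (insert q s)) = Nat.card (FX s) := by
  have h1 := card_orb (FX s) q
  rw [← FX_insert, orbit_FX hs hq] at h1
  have h2 : ({y | y ∉ s} : Set GolayPt).ncard = 24 - s.card := by
    have h3 : ({y | y ∉ s} : Set GolayPt) = ((sᶜ : Finset GolayPt) : Set GolayPt) := by
      ext y; simp
    rw [h3, Set.ncard_coe_finset, Finset.card_compl, card_golayPt]
  rw [h2] at h1
  exact h1

theorem card_FX0 : Nat.card (FX ∅) = 244823040 := by
  rw [FX_empty, Subgroup.card_top, card_M24]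

theorem card_FX_aux {s : Finset GolayPt} {k N M : ℕ} (hk : k ≤ 4) (h : s.card = k + 1)
    (ih : ∀ t : Finset GolayPt, t.card = k → Nat.card (FX t) = N) (hM : (24 - k) * M = N) :
    Nat.card (FX s) = M := by
  obtain ⟨q, hq⟩ : s.Nonempty := Finset.card_pos.1 (by omega)
  have h1 : (s.erase q).card = k := by rw [Finset.card_erase_of_mem hq, h]; rfl
  have h2 := card_FX_step (s := s.erase q) (by omega) (Finset.notMem_erase q s)
  rw [Finset.insert_erase hq, ih _ h1, h1, ← hM] at h2
  exact Nat.eq_of_mul_eq_mul_left (by omega) h2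

theorem card_FX1 {s : Finset GolayPt} (h : s.card = 1) : Nat.card (FX s) = 10200960 :=
  card_FX_aux (k := 0) (by norm_num) h
    (fun t ht => by rw [Finset.card_eq_zero.1 ht, card_FX0]) (by norm_num)

theorem card_FX2 {s : Finset GolayPt} (h : s.card = 2) : Nat.card (FX s) = 443520 :=
  card_FX_aux (k := 1) (by norm_num) h (fun _ ht => card_FX1 ht) (by norm_num)

theorem card_FX3 {s : Finset GolayPt} (h : s.card = 3) : Nat.card (FX s) = 20160 :=
  card_FX_aux (k := 2) (by norm_num) h (fun _ ht => card_FX2 ht) (by norm_num)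

theorem card_FX4 {s : Finset GolayPt} (h : s.card = 4) : Nat.card (FX s) = 960 :=
  card_FX_aux (k := 3) (by norm_num) h (fun _ ht => card_FX3 ht) (by norm_num)

theorem card_FX5 {s : Finset GolayPt} (h : s.card = 5) : Nat.card (FX s) = 48 :=
  card_FX_aux (k := 4) (by norm_num) h (fun _ ht => card_FX4 ht) (by norm_num)

theorem fixCount_e3 : e3.all (fun n => Nat.beq (fixCount n) 24 || Nat.beq (fixCount n) 6) = true := by
  decide +kernel

/-- A nontrivial element fixing six points not in a common octad fixes exactly six points. -/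
theorem fix_six_out {x : Fin 6 → GolayPt} (hx : Function.Injective x) (hxo : ¬ ∃ o ∈ octads, ∀ i, x i ∈ o)
    {g : M24} (hg : ∀ i, g • x i = x i) (h1 : g ≠ 1) :
    (Finset.univ.filter fun p : GolayPt => g • p = p).card = 6 := by
  obtain ⟨τ, hτ, hτx⟩ := six_out_base x hx hxo
  have h2 : τ⁻¹ * (g : Equiv.Perm GolayPt) * τ ∈ KOut := by
    rw [mem_KOut]
    refine ⟨M24.mul_mem (M24.mul_mem (M24.inv_mem hτ) g.2) hτ, fun i => ?_⟩
    have h3 : (g : Equiv.Perm GolayPt) (x i) = x i := hg i
    rw [Equiv.Perm.mul_apply, Equiv.Perm.mul_apply, hτx, h3, Equiv.Perm.inv_eq_iff_eq, hτx]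
  obtain ⟨n, hn, hT⟩ := KOut_exhaust _ h2
  have h4 := fixCount_spec hT
  have h5 := fixCount_conj τ⁻¹ (g : Equiv.Perm GolayPt)
  rw [inv_inv] at h5
  have h6 : (Finset.univ.filter fun p : GolayPt => g • p = p).card
      = (Finset.univ.filter fun p : GolayPt => (g : Equiv.Perm GolayPt) p = p).card := rfl
  rw [h6, ← h5, h4]
  have h7 := List.all_eq_true.1 fixCount_e3 n hn
  rw [Bool.or_eq_true] at h7
  rcases h7 with h7 | h7
  · exfalso
    have h8 := Nat.eq_of_beq_eq_true h7
    rw [← h4, h5] at h8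
    apply h1
    apply Subtype.ext
    ext1 p
    have h9 : (Finset.univ.filter fun p : GolayPt => (g : Equiv.Perm GolayPt) p = p) = Finset.univ := by
      apply Finset.eq_univ_of_card
      rw [h8, card_golayPt]
    have h10 : p ∈ (Finset.univ.filter fun p : GolayPt => (g : Equiv.Perm GolayPt) p = p) := by
      rw [h9]; exact Finset.mem_univ p
    exact (Finset.mem_filter.1 h10).2
  · exact Nat.eq_of_beq_eq_true h7

/-- A nontrivial element fixing at least seven points: they lie in an octad. -/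
theorem octad_of_fix {s : Finset GolayPt} (hs : 7 ≤ s.card) {g : M24} (hg : g ∈ FX s) (h1 : g ≠ 1) :
    ∃ o ∈ octads, s ⊆ o := by
  obtain ⟨t, hts, ht⟩ := Finset.exists_subset_card_eq (s := s) (n := 5) (by omega)
  obtain ⟨o, ho, hto⟩ := exists_octad ht
  refine ⟨o, ho, fun q hq => ?_⟩
  by_contra hqo
  have hqt : q ∉ t := fun h => hqo (hto h)
  have h6 : (insert q t).card = 6 := by rw [Finset.card_insert_of_notMem hqt, ht]
  obtain ⟨x, hx, hxt, htx⟩ := exists_tuple h6
  have h7 := fix_six_out hx (fun ⟨o', ho', h⟩ => by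
    have h8 : t ⊆ o' := fun z hz => by
      obtain ⟨i, rfl⟩ := htx z (Finset.mem_insert_of_mem hz)
      exact h i
    have h9 : o' = o := octad_eq_of_subset ho' ho h8 hto ht.ge
    obtain ⟨i, hi⟩ := htx q (Finset.mem_insert_self _ _)
    apply hqo
    rw [← h9, ← hi]
    exact h i) (g := g) (fun i => by
    rcases Finset.mem_insert.1 (hxt i) with h | h
    · rw [h]; exact hg q hq
    · exact hg _ (hts h)) h1
  have h8 : s ⊆ Finset.univ.filter fun p : GolayPt => g • p = p := fun z hz =>
    Finset.mem_filter.2 ⟨Finset.mem_univ _, hg z hz⟩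
  have := Finset.card_le_card h8
  omega

theorem FX_nine {s : Finset GolayPt} (hs : 9 ≤ s.card) : FX s = ⊥ := by
  rw [eq_bot_iff]
  intro g hg
  rw [Subgroup.mem_bot]
  by_contra h1
  obtain ⟨o, ho, hso⟩ := octad_of_fix (by omega) hg h1
  have := Finset.card_le_card hso
  rw [card_octad ho] at this
  omega

/-- an element of prime order `p` dividing the order of no smaller stabiliser -/
theorem not_fix_of_order {p : ℕ} {g : M24} (hg : orderOf g = p) {s : Finset GolayPt}
    {N : ℕ} (hN : Nat.card (FX s) = N) (hpN : ¬ p ∣ N) : g ∉ FX s := by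
  intro h
  apply hpN
  rw [← hN, ← hg]
  have := orderOf_dvd_natCard (⟨g, h⟩ : FX s)
  rwa [← Subgroup.orderOf_coe] at this

/-- the fixed points of an element -/
def fixF (g : M24) : Finset GolayPt := Finset.univ.filter fun p => g • p = p

theorem mem_fixF {g : M24} {p : GolayPt} : p ∈ fixF g ↔ g • p = p := by simp [fixF]

theorem mem_FX_fixF (g : M24) : g ∈ FX (fixF g) := fun _ hp => mem_fixF.1 hp

/-- an element of prime order acts on an invariant set: number of points modulo the order -/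
theorem modEq_fixF {p : ℕ} (hp : p.Prime) {g : M24} (hg : orderOf g = p) {s : Finset GolayPt}
    (hs : ∀ y ∈ s, g • y ∈ s) : s.card ≡ (s ∩ fixF g).card [MOD p] := by
  have : Fact p.Prime := ⟨hp⟩
  let f : Function.End s := fun y => ⟨g • (y : GolayPt), hs _ y.2⟩
  have hfn : ∀ n : ℕ, ∀ y : s, (((f ^ n) y : s) : GolayPt) = g ^ n • (y : GolayPt) := by
    intro n
    induction n with
    | zero => intro y; rw [pow_zero, pow_zero, one_smul]; rfl
    | succ n ih =>
      intro y
      have h1 : (f ^ (n + 1)) y = (f ^ n) (f y) := by rw [pow_succ]; rfl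
      rw [h1, ih, pow_succ, mul_smul]
  have hf : f ^ p ^ 1 = 1 := by
    funext y
    apply Subtype.ext
    rw [hfn, pow_one, ← hg, pow_orderOf_eq_one, one_smul]
    rfl
  have h1 := Equiv.Perm.card_fixedPoints_modEq hf
  rw [Fintype.card_coe] at h1
  have h2 : Fintype.card f.fixedPoints = (s ∩ fixF g).card := by
    rw [← Fintype.card_coe (s ∩ fixF g)]
    apply Fintype.card_congr
    refine ⟨fun y => ⟨(y.1 : GolayPt), Finset.mem_inter.2 ⟨y.1.2, mem_fixF.2 (congrArg Subtype.val y.2)⟩⟩,
      fun y => ⟨⟨y.1, (Finset.mem_inter.1 y.2).1⟩, Subtype.ext (mem_fixF.1 (Finset.mem_inter.1 y.2).2)⟩,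
      fun y => rfl, fun y => rfl⟩
  rw [h2] at h1
  exact h1

theorem card_fixF_le {p : ℕ} {g : M24} (hg : orderOf g = p) {k N : ℕ}
    (hN : ∀ s : Finset GolayPt, s.card = k + 1 → Nat.card (FX s) = N) (hpN : ¬ p ∣ N) : (fixF g).card ≤ k := by
  by_contra h
  obtain ⟨s, hs, hsc⟩ := Finset.exists_subset_card_eq (s := fixF g) (n := k + 1) (by omega)
  exact not_fix_of_order hg (hN s hsc) hpN (FX_anti hs (mem_FX_fixF g))

theorem card_univ24 : (Finset.univ : Finset GolayPt).card = 24 := by rw [Finset.card_univ, card_golayPt]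

theorem modEq_fixF_univ {p : ℕ} (hp : p.Prime) {g : M24} (hg : orderOf g = p) :
    24 ≡ (fixF g).card [MOD p] := by
  have h := modEq_fixF hp hg (s := Finset.univ) (fun y _ => Finset.mem_univ _)
  rwa [card_univ24, Finset.univ_inter] at h

/-- elements of order 5 fix exactly four points -/
theorem fix5 {g : M24} (hg : orderOf g = 5) : (fixF g).card = 4 := by
  have h1 := modEq_fixF_univ Nat.prime_five hg
  have h2 := card_fixF_le hg (k := 4) (fun s hs => card_FX5 hs) (by norm_num)
  have h3 : (fixF g).card % 5 = 4 := by rw [← h1]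
  omega

/-- elements of order 7 fix exactly three points -/
theorem fix7 {g : M24} (hg : orderOf g = 7) : (fixF g).card = 3 := by
  have h1 := modEq_fixF_univ (by norm_num) hg
  have h2 := card_fixF_le hg (k := 3) (fun s hs => card_FX4 hs) (by norm_num)
  have h3 : (fixF g).card % 7 = 3 := by rw [← h1]
  omega

/-- elements of order 11 fix exactly two points -/
theorem fix11 {g : M24} (hg : orderOf g = 11) : (fixF g).card = 2 := by
  have h1 := modEq_fixF_univ (by norm_num) hg
  have h2 := card_fixF_le hg (k := 2) (fun s hs => card_FX3 hs) (by norm_num)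
  have h3 : (fixF g).card % 11 = 2 := by rw [← h1]
  omega

/-! ### orbits of subgroups as finite sets -/

noncomputable instance decOrb (J : Subgroup M24) (y : GolayPt) : DecidablePred (· ∈ orbit J y) :=
  Classical.decPred _

/-- the orbit of a point as a finset -/
noncomputable def orb (J : Subgroup M24) (y : GolayPt) : Finset GolayPt :=
  Finset.univ.filter (· ∈ orbit J y)

theorem mem_orb {J : Subgroup M24} {y z : GolayPt} : z ∈ orb J y ↔ ∃ g ∈ J, g • y = z := by
  unfold orb
  rw [Finset.mem_filter]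
  constructor
  · rintro ⟨-, g, rfl⟩
    exact ⟨g, g.2, rfl⟩
  · rintro ⟨g, hg, rfl⟩
    exact ⟨Finset.mem_univ _, ⟨g, hg⟩, rfl⟩

theorem self_mem_orb (J : Subgroup M24) (y : GolayPt) : y ∈ orb J y := mem_orb.2 ⟨1, one_mem _, one_smul _ _⟩

theorem coe_orb (J : Subgroup M24) (y : GolayPt) : (orb J y : Set GolayPt) = orbit J y := by
  ext z
  simp [orb]

/-- orbit counting -/
theorem orb_mul (J : Subgroup M24) (y : GolayPt) :
    (orb J y).card * Nat.card (J ⊓ stabilizer M24 y : Subgroup M24) = Nat.card J := by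
  rw [← card_orb J y, ← coe_orb, Set.ncard_coe_finset]

theorem smul_mem_orb {J : Subgroup M24} {y z : GolayPt} {g : M24} (hg : g ∈ J) (hz : z ∈ orb J y) :
    g • z ∈ orb J y := by
  obtain ⟨h, hh, rfl⟩ := mem_orb.1 hz
  exact mem_orb.2 ⟨g * h, mul_mem hg hh, mul_smul _ _ _⟩

theorem orb_eq {J : Subgroup M24} {y z : GolayPt} (hz : z ∈ orb J y) : orb J z = orb J y := by
  obtain ⟨h, hh, rfl⟩ := mem_orb.1 hz
  ext w
  rw [mem_orb, mem_orb]
  constructor
  · rintro ⟨g, hg, rfl⟩
    exact ⟨g * h, mul_mem hg hh, mul_smul _ _ _⟩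
  · rintro ⟨g, hg, rfl⟩
    refine ⟨g * h⁻¹, mul_mem hg (inv_mem hh), ?_⟩
    rw [mul_smul, inv_smul_smul]

theorem orb_disj {J : Subgroup M24} {y z : GolayPt} (hz : z ∉ orb J y) : Disjoint (orb J y) (orb J z) := by
  rw [Finset.disjoint_left]
  intro w hw hwz
  apply hz
  rw [← orb_eq hw, orb_eq hwz]
  exact self_mem_orb J z

/-- an invariant set containing a point contains its orbit -/
theorem orb_subset {J : Subgroup M24} {s : Finset GolayPt} (hs : ∀ g ∈ J, ∀ y ∈ s, g • y ∈ s) {y : GolayPt}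
    (hy : y ∈ s) : orb J y ⊆ s := by
  intro z hz
  obtain ⟨g, hg, rfl⟩ := mem_orb.1 hz
  exact hs g hg y hy

/-- orbit size modulo the order of an element -/
theorem modEq_orb {p : ℕ} (hp : p.Prime) {J : Subgroup M24} {g : M24} (hgJ : g ∈ J) (hg : orderOf g = p)
    (y : GolayPt) : (orb J y).card ≡ (orb J y ∩ fixF g).card [MOD p] :=
  modEq_fixF hp hg (fun _ hz => smul_mem_orb hgJ hz)

theorem exists_order {J : Subgroup M24} {p : ℕ} (hp : p.Prime) (h : p ∣ Nat.card J) : ∃ g ∈ J, orderOf g = p := by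
  have : Fact p.Prime := ⟨hp⟩
  obtain ⟨g, hg⟩ := exists_prime_orderOf_dvd_card' (G := J) p h
  exact ⟨g, g.2, by rw [← hg, Subgroup.orderOf_coe]⟩

end Cfsg.Agent.M24X
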