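import Cfsg.Agent.M24X.Cent8B
import Cfsg.Agent.M24X.PtStab
import Cfsg.Agent.M24X.OctAlt

/-! The centralizer of an involution of `M24` with eight fixed points. -/

set_option autoImplicit false

namespace Cfsg.Agent.M24X.Cent8

open Cfsg MulAction Cfsg.Agent.Golay
open scoped Pointwise

section

variable {O : Finset GolayPt}

theorem smul_coe (g : M24) (p : GolayPt) : g • p = (g : Equiv.Perm GolayPt) p := rfl

theorem FX_map (O : Finset GolayPt) : (FX O).map M24.subtype = fixM24 O := by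
  ext σ
  rw [mem_fixM24, Subgroup.mem_map]
  constructor
  · rintro ⟨g, hg, rfl⟩
    exact ⟨g.2, hg⟩
  · rintro ⟨h1, h2⟩
    exact ⟨⟨σ, h1⟩, h2, rfl⟩

theorem card_FXO (hO : O ∈ octads) : Nat.card (FX O) = 16 := by
  rw [← card_fixM24_octad hO, ← FX_map, Subgroup.card_map_of_injective M24.subtype_injective]

theorem FXO_sq (hO : O ∈ octads) {e : M24} (he : e ∈ FX O) : e * e = 1 := by
  apply Subtype.ext
  exact fixM24_octad_square hO (mem_fixM24.2 ⟨e.2, he⟩)

theorem FXO_reg (hO : O ∈ octads) {e : M24} (he : e ∈ FX O) {p : GolayPt} (hp : p ∉ O) (h : e • p = p) :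
    e = 1 := Subtype.ext (fix_out hO hp e.2 he h)

theorem FXO_trans (hO : O ∈ octads) {p q : GolayPt} (hp : p ∉ O) (hq : q ∉ O) : ∃ e ∈ FX O, e • p = q := by
  obtain ⟨σ, h1, h2, h3⟩ := fix_trans hO hp hq
  exact ⟨⟨σ, h1⟩, h2, h3⟩

theorem mem_iff_of_smul {g : M24} (hg : g • O = O) (p : GolayPt) : g • p ∈ O ↔ p ∈ O := by
  constructor
  · intro h
    rw [← hg] at h
    exact (Finset.smul_mem_smul_finset_iff g).1 h
  · intro h
    have := (Finset.smul_mem_smul_finset_iff g).2 h
    rwa [hg] at this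

theorem FXO_conj {g : M24} (hg : g • O = O) {e : M24} (he : e ∈ FX O) : g * e * g⁻¹ ∈ FX O := by
  intro p hp
  have h1 : g⁻¹ • p ∈ O := by
    have h2 : g⁻¹ • O = O := by rw [inv_smul_eq_iff]; exact hg.symm
    exact (mem_iff_of_smul h2 p).2 hp
  rw [mul_smul, mul_smul, he _ h1, smul_inv_smul]

theorem smul_of_comm {z g : M24} (hfix : ∀ p, z • p = p ↔ p ∈ O) (h : g * z = z * g) : g • O = O := by
  have h1 : ∀ p, p ∈ O → g • p ∈ O := by
    intro p hp
    rw [← hfix, ← mul_smul, ← h, mul_smul, (hfix p).2 hp]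
  have h2 : g • O ⊆ O := by
    intro q hq
    rw [Finset.mem_smul_finset] at hq
    obtain ⟨p, hp, rfl⟩ := hq
    exact h1 p hp
  exact Finset.eq_of_subset_of_card_le h2 (by rw [Finset.card_smul_finset])

theorem fix_of_mem (hO : O ∈ octads) {e : M24} (he : e ∈ FX O) (h1 : e ≠ 1) (p : GolayPt) :
    e • p = p ↔ p ∈ O := by
  constructor
  · intro h
    by_contra hp
    exact h1 (FXO_reg hO he hp h)
  · exact he p

theorem exists_out (hO : O ∈ octads) : ∃ p : GolayPt, p ∉ O := by
  by_contra hcon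
  push Not at hcon
  have h1 : O = Finset.univ := Finset.eq_univ_of_forall hcon
  have h2 := card_octad hO
  rw [h1, card_univ24] at h2
  omega

theorem card_Sp (hO : O ∈ octads) {p : GolayPt} (hp : p ∉ O) :
    Nat.card (stabilizer M24 O ⊓ stabilizer M24 p : Subgroup M24) = 20160 := by
  have h1 := card_orb (stabilizer M24 O) p
  have h2 : (orbit (stabilizer M24 O) p : Set GolayPt) = ((Finset.univ \ O : Finset GolayPt) : Set GolayPt) := by
    ext q
    rw [Finset.mem_coe, Finset.mem_sdiff]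
    constructor
    · rintro ⟨g, rfl⟩
      refine ⟨Finset.mem_univ _, ?_⟩
      have hg : (g : M24) • O = O := g.2
      intro h
      exact hp ((mem_iff_of_smul hg p).1 h)
    · rintro ⟨-, hq⟩
      obtain ⟨e, he, hep⟩ := FXO_trans hO hp hq
      have heO : e • O = O := by
        have h3 : e • O ⊆ O := by
          intro x hx
          rw [Finset.mem_smul_finset] at hx
          obtain ⟨y, hy, rfl⟩ := hx
          rw [he y hy]; exact hy
        exact Finset.eq_of_subset_of_card_le h3 (by rw [Finset.card_smul_finset])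
      exact ⟨⟨e, heO⟩, hep⟩
  rw [h2, Set.ncard_coe_finset, Finset.card_sdiff_of_subset (Finset.subset_univ _), card_univ24, card_octad hO,
    card_stabilizer_octad hO] at h1
  omega

theorem eq_one_of_fix_out (hO : O ∈ octads) {g : M24} (h : ∀ p, p ∉ O → g • p = p) : g = 1 := by
  have h1 : g ∈ FX (Finset.univ \ O) := fun p hp => h p (Finset.mem_sdiff.1 hp).2
  have h2 := FX_nine (s := Finset.univ \ O) (by
    rw [Finset.card_sdiff_of_subset (Finset.subset_univ _), card_univ24, card_octad hO]; norm_num)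
  rw [h2, Subgroup.mem_bot] at h1
  exact h1

/-- The coordinates. -/
theorem exists_dat (hO : O ∈ octads) {z : M24} (hz1 : z ≠ 1) (hzO : z ∈ FX O) :
    ∃ D : Dat M24 z, ∀ g, g ∈ FX O ↔ ∃ v, D.t v = g := by
  obtain ⟨p, hp⟩ := exists_out hO
  have hfinE : Finite (FX O) := inferInstance
  obtain ⟨t, t1, t2, t3, t4⟩ := exists_t (card_FXO hO) (fun e he => FXO_sq hO he) hzO hz1
  set N : Subgroup M24 := stabilizer M24 O ⊓ stabilizer M24 p with hN
  have htE : ∀ v, t v ∈ FX O := fun v => (t3 _).2 ⟨v, rfl⟩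
  obtain ⟨Ψ, hΨ⟩ := exists_Psi t1 t2 N (by
    intro g hg v
    exact (t3 _).1 (FXO_conj hg.1 (htE v)))
  have hinj : Function.Injective Ψ := by
    rw [injective_iff_map_eq_one]
    intro g hg
    have h1 : ∀ v, (g : M24) * t v = t v * g := by
      intro v
      have := hΨ g v
      rw [hg] at this
      have h2 : t v = g * t v * (g : M24)⁻¹ := this
      rw [eq_mul_inv_iff_mul_eq] at h2
      exact h2.symm
    apply Subtype.ext
    apply eq_one_of_fix_out hO
    intro q hq
    obtain ⟨e, he, rfl⟩ := FXO_trans hO hp hq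
    obtain ⟨v, rfl⟩ := (t3 _).1 he
    have hgp : (g : M24) • p = p := g.2.2
    rw [← mul_smul, h1, mul_smul, hgp]
  have hfinN : Finite N := inferInstance
  have hfinL : Finite (V4 ≃ₗ[ZMod 2] V4) := Nat.finite_of_card_ne_zero (by rw [card_aut]; norm_num)
  have hbij : Function.Bijective Ψ :=
    (Nat.bijective_iff_injective_and_card Ψ).2 ⟨hinj, by rw [card_aut, hN, card_Sp hO hp]⟩
  let e := MulEquiv.ofBijective Ψ hbij
  have he : ∀ α, Ψ (e.symm α) = α := fun α => e.apply_symm_apply α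
  have hz : ∀ q, z • q = q ↔ q ∈ O := fix_of_mem hO hzO hz1
  refine ⟨{ t := t, Θ := N.subtype.comp e.symm.toMonoidHom, t_add := t1, t_inj := t2, t_z := t4,
            Θ_inj := N.subtype_injective.comp e.symm.injective, conj := ?_, uniq := ?_, cent := ?_ }, t3⟩
  · intro α v
    have := hΨ (e.symm α) v
    rw [he] at this
    exact this.symm
  · intro v α h
    have h1 : (t v) • p = p := by
      rw [h]
      exact (e.symm α).2.2
    have h2 := FXO_reg hO (htE v) hp h1
    have h3 : t 0 = 1 := by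
      have h := t1 0 0
      rw [add_zero] at h
      exact left_eq_mul.1 h
    rw [← h3] at h2
    exact t2 h2
  · intro g hg
    have hgO : g • O = O := smul_of_comm hz hg
    have hgp : g • p ∉ O := fun h => hp ((mem_iff_of_smul hgO p).1 h)
    obtain ⟨x, hx, hxp⟩ := FXO_trans hO hp hgp
    obtain ⟨v, rfl⟩ := (t3 _).1 hx
    have hxO : t v • O = O := by
      have h3 : t v • O ⊆ O := by
        intro x' hx'
        rw [Finset.mem_smul_finset] at hx'
        obtain ⟨y, hy, rfl⟩ := hx'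
        rw [hx y hy]; exact hy
      exact Finset.eq_of_subset_of_card_le h3 (by rw [Finset.card_smul_finset])
    have hmem : (t v)⁻¹ * g ∈ N := by
      refine ⟨?_, ?_⟩
      · show ((t v)⁻¹ * g) • O = O
        rw [mul_smul, hgO, inv_smul_eq_iff, hxO]
      · show ((t v)⁻¹ * g) • p = p
        rw [mul_smul, ← hxp, inv_smul_smul]
    refine ⟨v, e ⟨_, hmem⟩, ?_⟩
    show g = t v * ((e.symm (e ⟨_, hmem⟩) : N) : M24)
    rw [e.symm_apply_apply]
    group

theorem final (z : M24) (hz : orderOf z = 2)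
    (hfix : (Finset.univ.filter fun p : GolayPt => (z : Equiv.Perm GolayPt) p = p) ∈ octads) (Q : Subgroup M24)
    (hQ : Q = (pCore 2 (Subgroup.centralizer ({z} : Set M24))).map
      (Subgroup.centralizer ({z} : Set M24)).subtype) :
    IsExtraspecial 2 Q ∧ Nat.card Q = 2 ^ 7 ∧
      (∃ E : Subgroup M24, E ≤ Q ∧ IsElementaryAbelian 2 E ∧ Nat.card E = 2 ^ 4) ∧
      IsLargeExtraspecial Q ∧ ∃ K : Subgroup M24, K ≤ Subgroup.centralizer ({z} : Set M24) ∧ Q ⊓ K = ⊥ ∧
        Q ⊔ K = Subgroup.centralizer ({z} : Set M24) ∧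
        Nonempty (K ≃* Matrix.SpecialLinearGroup (Fin 3) (ZMod 2)) := by
  have hz1 : z ≠ 1 := by
    intro h; rw [h, orderOf_one] at hz; omega
  have hzO : z ∈ FX (Finset.univ.filter fun p : GolayPt => (z : Equiv.Perm GolayPt) p = p) := by
    intro p hp
    exact (Finset.mem_filter.1 hp).2
  obtain ⟨D, hD⟩ := exists_dat hfix hz1 hzO
  apply D.main _ Q hQ
  intro g hg v
  have hb1 : D.t (0, Pi.single 0 1) ≠ 1 := by
    intro h
    rw [← D.t_zero] at h
    have h1 := congrFun (congrArg Prod.snd (D.t_inj h)) 0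
    have h3 : (Pi.single 0 1 : Fin 3 → ZMod 2) 0 = 0 := h1
    rw [Pi.single_eq_same] at h3
    revert h3; decide
  have hgO := smul_of_comm (fix_of_mem hfix ((hD _).2 ⟨_, rfl⟩) hb1) hg
  exact (hD _).1 (FXO_conj hgO ((hD _).2 ⟨v, rfl⟩))

end

end Cfsg.Agent.M24X.Cent8
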