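import Mathlib

/-! The double cover of the alternating groups, by means of signed shift operators. -/

set_option autoImplicit false

namespace Cfsg.Agent.M24X.CovAlt

open Matrix Equiv

/-- the sign character -/
def c (x : ZMod 2) : ZMod 3 := if x = 0 then 1 else -1

theorem c_add (x y : ZMod 2) : c (x + y) = c x * c y := by revert x y; decide
theorem c_zero : c 0 = 1 := by decide
theorem c_one : c 1 = -1 := by decide
theorem c_sq (x : ZMod 2) : c x * c x = 1 := by revert x; decide

variable {n : ℕ}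

/-- vectors -/
abbrev Vc (n : ℕ) := Fin n → ZMod 2

/-- the space -/
def W (n : ℕ) : Type := Vc n → ZMod 3

instance : AddCommGroup (W n) := inferInstanceAs (AddCommGroup (Vc n → ZMod 3))
instance : Module (ZMod 3) (W n) := inferInstanceAs (Module (ZMod 3) (Vc n → ZMod 3))
instance : CoeFun (W n) (fun _ => Vc n → ZMod 3) := ⟨fun f => f⟩
instance : Finite (W n) := inferInstanceAs (Finite (Vc n → ZMod 3))

theorem add_ap (f g : W n) (v : Vc n) : (f + g) v = f v + g v := rfl
theorem smul_ap (k : ZMod 3) (f : W n) (v : Vc n) : (k • f) v = k * f v := rfl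
theorem w_ext {f g : W n} (h : ∀ v, f v = g v) : f = g := funext h

/-- the algebra -/
abbrev E (n : ℕ) := Module.End (ZMod 3) (W n)

/-- signed shift -/
def O (w a : Vc n) : E n where
  toFun f := fun v => c (w ⬝ᵥ v) * f (v + a)
  map_add' f g := w_ext fun v => by
    rw [add_ap]
    show c (w ⬝ᵥ v) * (f + g) (v + a) = c (w ⬝ᵥ v) * f (v + a) + c (w ⬝ᵥ v) * g (v + a)
    rw [add_ap, mul_add]
  map_smul' k f := w_ext fun v => by
    show c (w ⬝ᵥ v) * (k • f) (v + a) = k * (c (w ⬝ᵥ v) * f (v + a))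
    rw [smul_ap, mul_left_comm]

theorem O_apply (w a : Vc n) (f : W n) (v : Vc n) : O w a f v = c (w ⬝ᵥ v) * f (v + a) := rfl

theorem O_mul (w a w' b : Vc n) : O w a * O w' b = c (w' ⬝ᵥ a) • O (w + w') (a + b) := by
  apply LinearMap.ext
  intro f
  apply w_ext
  intro v
  rw [Module.End.mul_apply, LinearMap.smul_apply, smul_ap, O_apply, O_apply, O_apply,
    dotProduct_add, c_add, add_dotProduct, c_add, add_assoc]
  ring

theorem O_zero : O (0 : Vc n) 0 = 1 := by
  apply LinearMap.ext
  intro f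
  apply w_ext
  intro v
  rw [O_apply, zero_dotProduct, c_zero, one_mul, add_zero]
  rfl

theorem add_self (a : Vc n) : a + a = 0 := by
  funext i
  exact CharTwo.add_self_eq_zero _

/-- the vectors -/
def lo (m : Fin n) : Vc n := fun j => if j < m then 1 else 0
/-- the vectors -/
def le (m : Fin n) : Vc n := fun j => if j ≤ m then 1 else 0
/-- the vectors -/
def dl (m : Fin n) : Vc n := Pi.single m 1

/-- generators -/
def e (m : Fin n) : E n := O (lo m) (dl m)
/-- generators -/
def r (m : Fin n) : E n := O (le m) (dl m)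

theorem dot_dl (w : Vc n) (m : Fin n) : w ⬝ᵥ dl m = w m := by
  rw [dl, dotProduct_single, mul_one]

theorem e_sq (m : Fin n) : e m * e m = 1 := by
  rw [e, O_mul, dot_dl, add_self, add_self, O_zero]
  simp [lo, c_zero]

theorem O_comm_of {w a w' b : Vc n} (h : c (w' ⬝ᵥ a) = -c (w ⬝ᵥ b)) :
    O w a * O w' b = -(O w' b * O w a) := by
  rw [O_mul, O_mul, h, neg_smul, add_comm w w', add_comm a b]

theorem e_anti {i j : Fin n} (h : i ≠ j) : e i * e j = -(e j * e i) := by
  apply O_comm_of
  rw [dot_dl, dot_dl, lo, lo]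
  rcases lt_or_gt_of_ne h with h1 | h1
  · rw [if_pos h1, if_neg (not_lt.2 h1.le), c_one, c_zero]
  · rw [if_pos h1, if_neg (not_lt.2 h1.le), c_one, c_zero, neg_neg]

theorem er_anti (i j : Fin n) : e i * r j = -(r j * e i) := by
  apply O_comm_of
  rw [dot_dl, dot_dl, lo, le]
  by_cases h1 : i ≤ j
  · rw [if_pos h1, if_neg (not_lt.2 h1), c_one, c_zero]
  · rw [if_neg h1, if_pos (not_le.1 h1), c_one, c_zero, neg_neg]

/-- the sign -/
def sg (σ : Perm (Fin n)) : ZMod 3 := ((Perm.sign σ : ℤ) : ZMod 3)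

theorem sg_mul (σ τ : Perm (Fin n)) : sg (σ * τ) = sg σ * sg τ := by
  rw [sg, Perm.sign_mul, Units.val_mul, Int.cast_mul]; rfl

theorem sg_one : sg (1 : Perm (Fin n)) = 1 := by
  rw [sg, Perm.sign_one]; rfl

theorem sg_swap {i j : Fin n} (h : i ≠ j) : sg (swap i j) = -1 := by
  rw [sg, Perm.sign_swap h]; simp

theorem three_eq_zero : (3 : E n) = 0 := by
  have : (3 : E n) = algebraMap (ZMod 3) (E n) 3 := by rw [map_ofNat]
  rw [this, show (3 : ZMod 3) = 0 from by decide, map_zero]

/-- lifts of transpositions -/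
def t (i j : Fin n) : E n := e i - e j

theorem t_sq {i j : Fin n} (h : i ≠ j) : t i j * t i j = -1 := by
  have h1 : t i j * t i j = e i * e i + e j * e j - (e i * e j + e j * e i) := by
    rw [t]; noncomm_ring
  rw [h1, e_sq, e_sq, e_anti h, neg_add_cancel, sub_zero, ← sub_eq_zero]
  have : (1 : E n) + 1 - -1 = 3 := by norm_num
  rw [this, three_eq_zero]

theorem t_e {i j : Fin n} (h : i ≠ j) (m : Fin n) : t i j * e m = -(e (swap i j m) * t i j) := by
  rcases eq_or_ne m i with rfl | h1
  · rw [swap_apply_left, t, sub_mul, mul_sub, e_sq, e_sq]; abel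
  rcases eq_or_ne m j with rfl | h2
  · rw [swap_apply_right, t, sub_mul, mul_sub, e_sq, e_sq]; abel
  · rw [swap_apply_of_ne_of_ne h1 h2, t, sub_mul, mul_sub, e_anti h1.symm, e_anti h2.symm]; abel

theorem t_r (i j m : Fin n) : t i j * r m = -(r m * t i j) := by
  rw [t, sub_mul, mul_sub, er_anti, er_anti]; abel

/-- unit -/
def tu {i j : Fin n} (h : i ≠ j) : (E n)ˣ := ⟨t i j, -t i j, by rw [mul_neg, t_sq h, neg_neg], by
  rw [neg_mul, t_sq h, neg_neg]⟩

/-- lifts -/
def IsLift (σ : Perm (Fin n)) (x : E n) : Prop :=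
  ∀ m, x * e m = sg σ • (e (σ m) * x) ∧ x * r m = sg σ • (r m * x)

theorem IsLift.mul {σ τ : Perm (Fin n)} {x y : E n} (hx : IsLift σ x) (hy : IsLift τ y) :
    IsLift (σ * τ) (x * y) := by
  intro m
  constructor
  · rw [mul_assoc, (hy m).1, mul_smul_comm, ← mul_assoc, (hx _).1, smul_mul_assoc, smul_smul,
      sg_mul, mul_comm (sg τ), mul_assoc]; rfl
  · rw [mul_assoc, (hy m).2, mul_smul_comm, ← mul_assoc, (hx _).2, smul_mul_assoc, smul_smul,
      sg_mul, mul_comm (sg τ), mul_assoc]

theorem isLift_one : IsLift (1 : Perm (Fin n)) 1 := by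
  intro m
  rw [sg_one, one_smul, one_smul, one_mul, one_mul, mul_one, mul_one]
  exact ⟨rfl, rfl⟩

theorem isLift_t {i j : Fin n} (h : i ≠ j) : IsLift (swap i j) (t i j) := by
  intro m
  rw [sg_swap h, neg_smul, neg_smul, one_smul, one_smul]
  exact ⟨t_e h m, t_r i j m⟩

theorem sg_sq (σ : Perm (Fin n)) : sg σ * sg σ = 1 := by
  rw [sg, ← Int.cast_mul]
  rcases Int.units_eq_one_or (Perm.sign σ) with h | h <;> rw [h] <;> rfl

theorem IsLift.inv {σ : Perm (Fin n)} {x : (E n)ˣ} (hx : IsLift σ (x : E n)) :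
    IsLift σ⁻¹ ((x⁻¹ : (E n)ˣ) : E n) := by
  have hs : sg σ⁻¹ = sg σ := by
    rw [sg, sg, Perm.sign_inv]
  intro m
  rw [hs]
  constructor
  · have h1 := (hx (σ⁻¹ m)).1
    rw [show σ (σ⁻¹ m) = m from Equiv.apply_symm_apply σ m] at h1
    have h2 : ((x⁻¹ : (E n)ˣ) : E n) * (x * e (σ⁻¹ m)) * (x⁻¹ : (E n)ˣ) =
      ((x⁻¹ : (E n)ˣ) : E n) * (sg σ • (e m * x)) * (x⁻¹ : (E n)ˣ) := by rw [h1]
    rw [← mul_assoc, Units.inv_mul, one_mul, mul_smul_comm, smul_mul_assoc, mul_assoc ((x⁻¹ : (E n)ˣ) : E n),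
      mul_assoc (e m), Units.mul_inv, mul_one] at h2
    rw [h2, smul_smul, sg_sq, one_smul]
  · have h1 := (hx m).2
    have h2 : ((x⁻¹ : (E n)ˣ) : E n) * (x * r m) * (x⁻¹ : (E n)ˣ) =
      ((x⁻¹ : (E n)ˣ) : E n) * (sg σ • (r m * x)) * (x⁻¹ : (E n)ˣ) := by rw [h1]
    rw [← mul_assoc, Units.inv_mul, one_mul, mul_smul_comm, smul_mul_assoc, mul_assoc ((x⁻¹ : (E n)ˣ) : E n),
      mul_assoc (r m), Units.mul_inv, mul_one] at h2
    rw [h2, smul_smul, sg_sq, one_smul]

theorem exists_lift (σ : Perm (Fin n)) : ∃ x : (E n)ˣ, IsLift σ (x : E n) := by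
  induction σ using Perm.swap_induction_on with
  | one => exact ⟨1, isLift_one⟩
  | swap_mul f i j h hf =>
    obtain ⟨x, hx⟩ := hf
    exact ⟨tu h * x, (isLift_t h).mul hx⟩

theorem isLift_neg {σ : Perm (Fin n)} {x : E n} (hx : IsLift σ x) : IsLift σ (-x) := by
  intro m
  rw [neg_mul, mul_neg, neg_mul, mul_neg, (hx m).1, (hx m).2, smul_neg, smul_neg]
  exact ⟨rfl, rfl⟩

/-! ### Operators commuting with everything -/

theorem scalar_of_comm {x : E n} (h1 : ∀ m, x * e m = e m * x) (h2 : ∀ m, x * r m = r m * x) :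
    ∃ k : ZMod 3, x = k • 1 := by
  -- diagonal operators
  have hd : ∀ m : Fin n, x * O (dl m) 0 = O (dl m) 0 * x := by
    intro m
    have h3 : O (dl m) (0 : Vc n) = -(e m * r m) := by
      rw [e, r, O_mul, dot_dl, add_self, le, if_pos le_rfl, c_one, neg_smul, one_smul, neg_neg]
      congr 1
      funext j
      simp only [Pi.add_apply, lo, le, dl, Pi.single_apply]
      rcases lt_trichotomy j m with h | h | h
      · rw [if_pos h, if_pos h.le, if_neg h.ne]; decide
      · subst h; rw [if_neg (lt_irrefl _), if_pos le_rfl, if_pos rfl]; decide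
      · rw [if_neg h.not_gt, if_neg h.not_ge, if_neg h.ne']; decide
    rw [h3, mul_neg, neg_mul, ← mul_assoc, h1, mul_assoc, h2, mul_assoc]
  have hd' : ∀ w : Vc n, x * O w 0 = O w 0 * x := by
    intro w
    rw [← Finset.univ_sum_single w]
    apply Finset.sum_induction (fun m => Pi.single m (w m)) (fun w => x * O w 0 = O w 0 * x)
    · intro a b ha hb
      have h3 : O (a + b) (0 : Vc n) = O a 0 * O b 0 := by
        rw [O_mul, dotProduct_zero, c_zero, one_smul, add_zero]
      rw [h3, ← mul_assoc, ha, mul_assoc, hb, mul_assoc]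
    · rw [O_zero, mul_one, one_mul]
    · intro m _
      have h4 : w m = 0 ∨ w m = 1 := by
        generalize w m = y; revert y; decide
      rcases h4 with h4 | h4
      · rw [h4, Pi.single_zero, O_zero, mul_one, one_mul]
      · rw [h4]; exact hd m
  have ht : ∀ m : Fin n, x * O 0 (dl m) = O 0 (dl m) * x := by
    intro m
    have h3 : O (0 : Vc n) (dl m) = O (lo m) 0 * e m := by
      rw [e, O_mul, dotProduct_zero, c_zero, one_smul, add_self, zero_add]
    rw [h3, ← mul_assoc, hd', mul_assoc, h1, mul_assoc]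
  have ht' : ∀ a : Vc n, x * O 0 a = O 0 a * x := by
    intro w
    rw [← Finset.univ_sum_single w]
    apply Finset.sum_induction (fun m => Pi.single m (w m)) (fun w => x * O 0 w = O 0 w * x)
    · intro a b ha hb
      have h3 : O (0 : Vc n) (a + b) = O 0 a * O 0 b := by
        rw [O_mul, zero_dotProduct, c_zero, one_smul, add_zero]
      rw [h3, ← mul_assoc, ha, mul_assoc, hb, mul_assoc]
    · rw [O_zero, mul_one, one_mul]
    · intro m _
      have h4 : w m = 0 ∨ w m = 1 := by
        generalize w m = y; revert y; decide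
      rcases h4 with h4 | h4
      · rw [h4, Pi.single_zero, O_zero, mul_one, one_mul]
      · rw [h4]; exact ht m
  classical
  let sn : Vc n → W n := fun v => (Pi.single v 1 : Vc n → ZMod 3)
  have hsn : ∀ v u, sn v u = if u = v then 1 else 0 := fun v u => Pi.single_apply v 1 u
  set φ : W n := sn 0 with hφ
  set k : ZMod 3 := x φ 0 with hk
  have h0 : x φ = k • φ := by
    apply w_ext
    intro u
    rw [smul_ap, hφ, hsn]
    by_cases hu : u = 0
    · rw [hu, if_pos rfl, mul_one]
    · rw [if_neg hu, mul_zero]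
      obtain ⟨m, hm⟩ := Function.ne_iff.1 hu
      have hm1 : u m = 1 := by
        have hm2 : u m ≠ 0 := hm
        revert hm2; generalize u m = y; revert y; decide
      have h5 := congrArg (fun T : E n => T φ u) (hd m)
      simp only [Module.End.mul_apply] at h5
      have h6 : O (dl m) 0 φ = φ := by
        apply w_ext
        intro v
        rw [O_apply, add_zero, hφ, hsn]
        by_cases hv : v = 0
        · rw [hv, dotProduct_zero, c_zero, one_mul]
        · rw [if_neg hv, mul_zero]
      rw [h6, O_apply, add_zero, dl, single_dotProduct, one_mul, hm1, c_one] at h5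
      rw [hφ] at h5
      revert h5
      generalize (x (sn 0)) u = y
      revert y; decide
  have h7 : ∀ v : Vc n, x (sn v) = k • sn v := by
    intro v
    have h8 : sn v = O 0 v φ := by
      apply w_ext
      intro u
      rw [O_apply, zero_dotProduct, c_zero, one_mul, hφ, hsn, hsn]
      have : (u = v) ↔ (u + v = 0) := by
        constructor
        · rintro rfl; exact add_self u
        · intro h
          have h9 : u = -v := eq_neg_of_add_eq_zero_left h
          rw [h9]
          exact neg_eq_of_add_eq_zero_left (add_self v)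
      simp only [this]
    have h9 := congrArg (fun T : E n => T φ) (ht' v)
    simp only [Module.End.mul_apply] at h9
    rw [h8, h9, h0, map_smul]
  refine ⟨k, ?_⟩
  apply LinearMap.ext
  intro f
  have h10 : ∑ v, f v • sn v = f := by
    have h11 : ∀ v, f v • sn v = (Pi.single v (f v) : Vc n → ZMod 3) := by
      intro v
      apply w_ext
      intro u
      rw [smul_ap, hsn]
      show _ = (Pi.single v (f v) : Vc n → ZMod 3) u
      rw [Pi.single_apply]
      split_ifs <;> simp
    exact (Finset.sum_congr rfl (fun v _ => h11 v)).trans (Finset.univ_sum_single (f : Vc n → ZMod 3))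
  rw [← h10, map_sum, map_sum]
  apply Finset.sum_congr rfl
  intro v _
  rw [map_smul, map_smul, h7]
  rfl

theorem neg_one_ne : (-1 : E n) ≠ 1 := by
  intro h
  have h1 := congrArg (fun T : E n => T ((fun _ => 1 : Vc n → ZMod 3) : W n) 0) h
  have h2 : (-1 : ZMod 3) = 1 := h1
  revert h2; decide

theorem ker_lift {x : (E n)ˣ} (h : IsLift 1 (x : E n)) : x = 1 ∨ x = -1 := by
  have h1 : ∀ m, (x : E n) * e m = e m * (x : E n) := fun m => by
    have := (h m).1
    rwa [sg_one, one_smul] at this
  have h2 : ∀ m, (x : E n) * r m = r m * (x : E n) := fun m => by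
    have := (h m).2
    rwa [sg_one, one_smul] at this
  obtain ⟨k, hk⟩ := scalar_of_comm h1 h2
  have h3 : k = 0 ∨ k = 1 ∨ k = -1 := by clear hk; revert k; decide
  rcases h3 with h3 | h3 | h3
  · exfalso
    rw [h3, zero_smul] at hk
    have h4 : (1 : E n) = 0 := by
      rw [← x.mul_inv, hk, zero_mul]
    have h5 := congrArg (fun T : E n => T ((fun _ => 1 : Vc n → ZMod 3) : W n) 0) h4
    have h6 : (1 : ZMod 3) = 0 := h5
    revert h6; decide
  · left; apply Units.ext; rw [hk, h3, one_smul]; rfl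
  · right; apply Units.ext; rw [hk, h3, neg_smul, one_smul]; rfl

end Cfsg.Agent.M24X.CovAlt
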