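import Cfsg.Agent.M24X.CovAlt

/-! The double cover of the alternating groups: the group. -/

set_option autoImplicit false

namespace Cfsg.Agent.M24X.CovAlt

open Equiv
open scoped commutatorElement

variable {n : ℕ}

/-- the double cover -/
def Cov (n : ℕ) : Subgroup (alternatingGroup (Fin n) × (E n)ˣ) where
  carrier := {p | IsLift (p.1 : Perm (Fin n)) ((p.2 : (E n)ˣ) : E n)}
  mul_mem' ha hb := ha.mul hb
  one_mem' := isLift_one
  inv_mem' h := h.inv

theorem mem_Cov {p : alternatingGroup (Fin n) × (E n)ˣ} :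
    p ∈ Cov n ↔ IsLift (p.1 : Perm (Fin n)) ((p.2 : (E n)ˣ) : E n) := Iff.rfl

instance : Finite (E n) :=
  Finite.of_injective (fun f : E n => (f : W n → W n)) DFunLike.coe_injective

instance : Finite (E n)ˣ := Finite.of_injective Units.val Units.val_injective

instance : Finite (Cov n) := inferInstance

/-- the central involution -/
def z (n : ℕ) : Cov n := ⟨(1, -1), isLift_neg isLift_one⟩

/-- projection -/
def pr (n : ℕ) : Cov n →* alternatingGroup (Fin n) := (MonoidHom.fst _ _).comp (Cov n).subtype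

theorem pr_surj : Function.Surjective (pr n) := by
  intro σ
  obtain ⟨x, hx⟩ := exists_lift (σ : Perm (Fin n))
  exact ⟨⟨(σ, x), hx⟩, rfl⟩

theorem z_sq : z n ^ 2 = 1 := by
  apply Subtype.ext
  apply Prod.ext
  · exact one_pow 2
  · show (-1 : (E n)ˣ) ^ 2 = 1
    rw [sq, neg_mul_neg, one_mul]

theorem z_ne : z n ≠ 1 := by
  intro h
  have h1 : (-1 : (E n)ˣ) = 1 := congrArg (fun x : Cov n => x.1.2) h
  apply neg_one_ne (n := n)
  exact congrArg Units.val h1

theorem orderOf_z : orderOf (z n) = 2 := by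
  have : Fact (Nat.Prime 2) := ⟨Nat.prime_two⟩
  exact orderOf_eq_prime z_sq z_ne

theorem z_central : z n ∈ Subgroup.center (Cov n) := by
  rw [Subgroup.mem_center_iff]
  rintro ⟨⟨σ, x⟩, h⟩
  apply Subtype.ext
  apply Prod.ext
  · show σ * 1 = 1 * σ
    rw [mul_one, one_mul]
  · show x * (-1 : (E n)ˣ) = -1 * x
    rw [mul_neg, neg_mul, mul_one, one_mul]

theorem ker_pr : (pr n).ker = Subgroup.zpowers (z n) := by
  ext ⟨⟨σ, x⟩, h⟩
  constructor
  · intro h1
    have h2 : σ = 1 := h1
    subst h2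
    rcases ker_lift (x := x) h with h3 | h3
    · subst h3
      exact Subgroup.one_mem _
    · subst h3
      exact Subgroup.mem_zpowers _
  · intro h1
    have h2 : Subgroup.zpowers (z n) ≤ (pr n).ker := by
      rw [Subgroup.zpowers_le]
      exact MonoidHom.mem_ker.2 rfl
    exact h2 h1

/-- lift of a double transposition -/
theorem even_sw {i j k l : Fin n} (h1 : i ≠ j) (h2 : k ≠ l) :
    (swap i j * swap k l : Perm (Fin n)) ∈ alternatingGroup (Fin n) := by
  rw [Perm.mem_alternatingGroup, Perm.sign_mul, Perm.sign_swap h1, Perm.sign_swap h2]; rfl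

/-- lift of a double transposition -/
def dt {i j k l : Fin n} (h1 : i ≠ j) (h2 : k ≠ l) : Cov n :=
  ⟨(⟨swap i j * swap k l, even_sw h1 h2⟩, tu h1 * tu h2), (isLift_t h1).mul (isLift_t h2)⟩

theorem t_anti {i j k l : Fin n} (h1 : i ≠ k) (h2 : i ≠ l) (h3 : j ≠ k) (h4 : j ≠ l) :
    t i j * t k l = -(t k l * t i j) := by
  have e1 : t i j * t k l = e i * e k - e i * e l - e j * e k + e j * e l := by
    simp only [t]; noncomm_ring
  have e2 : t k l * t i j = e k * e i - e l * e i - e k * e j + e l * e j := by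
    simp only [t]; noncomm_ring
  rw [e1, e2, e_anti h1, e_anti h2, e_anti h3, e_anti h4]
  abel

theorem IsLift.even {σ : Perm (Fin n)} {x : E n} (hx : IsLift σ x) (h : sg σ = 1) (i j : Fin n) :
    x * t i j = t (σ i) (σ j) * x := by
  have h1 := (hx i).1
  have h2 := (hx j).1
  rw [h, one_smul] at h1 h2
  rw [t, mul_sub, h1, h2, t, sub_mul]

theorem comm_dt {i j k l : Fin n} (hij : i ≠ j) (hik : i ≠ k) (hil : i ≠ l) (hjk : j ≠ k)
    (hjl : j ≠ l) (hkl : k ≠ l) : ⁅dt hij hkl, dt hik hjl⁆ = z n := by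
  have hs : sg (swap i j * swap k l : Perm (Fin n)) = 1 := by
    rw [sg_mul, sg_swap hij, sg_swap hkl]; decide
  have hl := (isLift_t hij).mul (isLift_t hkl)
  have v1 : (swap i j * swap k l : Perm (Fin n)) i = j := by
    rw [Perm.mul_apply, swap_apply_of_ne_of_ne hik hil, swap_apply_left]
  have v2 : (swap i j * swap k l : Perm (Fin n)) j = i := by
    rw [Perm.mul_apply, swap_apply_of_ne_of_ne hjk hjl, swap_apply_right]
  have v3 : (swap i j * swap k l : Perm (Fin n)) k = l := by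
    rw [Perm.mul_apply, swap_apply_left, swap_apply_of_ne_of_ne hil.symm hjl.symm]
  have v4 : (swap i j * swap k l : Perm (Fin n)) l = k := by
    rw [Perm.mul_apply, swap_apply_right, swap_apply_of_ne_of_ne hik.symm hjk.symm]
  have a1 := hl.even hs i k
  rw [v1, v3] at a1
  have a2 := hl.even hs j l
  rw [v2, v4] at a2
  have key : (t i j * t k l) * (t i k * t j l) = -((t i k * t j l) * (t i j * t k l)) := by
    rw [← mul_assoc, a1, mul_assoc, a2, ← mul_assoc, t_anti hij.symm hjk hil.symm hkl.symm, neg_mul]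
  have hperm : (swap i j * swap k l : Perm (Fin n)) * (swap i k * swap j l) =
      (swap i k * swap j l) * (swap i j * swap k l) := by
    have b1 : (swap i j * swap k l : Perm (Fin n)) * swap i k = swap j l * (swap i j * swap k l) := by
      rw [Equiv.mul_swap_eq_swap_mul, v1, v3]
    have b2 : (swap i j * swap k l : Perm (Fin n)) * swap j l = swap i k * (swap i j * swap k l) := by
      rw [Equiv.mul_swap_eq_swap_mul, v2, v4]
    have b3 : (swap j l : Perm (Fin n)) * swap i k = swap i k * swap j l :=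
      (Perm.disjoint_swap_swap (by simp [hik, hjk, hjl, hij.symm, hil.symm, hkl.symm])).commute
    rw [← mul_assoc, b1, mul_assoc, b2, ← mul_assoc, b3]
  rw [commutatorElement_def]
  have h5 : dt hij hkl * dt hik hjl = z n * (dt hik hjl * dt hij hkl) := by
    apply Subtype.ext
    apply Prod.ext
    · apply Subtype.ext
      show (swap i j * swap k l : Perm (Fin n)) * (swap i k * swap j l) =
        1 * ((swap i k * swap j l) * (swap i j * swap k l))
      rw [one_mul, hperm]
    · apply Units.ext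
      show (t i j * t k l) * (t i k * t j l) = -1 * ((t i k * t j l) * (t i j * t k l))
      rw [key, neg_mul, one_mul]
  rw [h5]; group

theorem z_mem_comm (hn : 4 ≤ n) : z n ∈ commutator (Cov n) := by
  let x0 : Fin n := ⟨0, by omega⟩
  let x1 : Fin n := ⟨1, by omega⟩
  let x2 : Fin n := ⟨2, by omega⟩
  let x3 : Fin n := ⟨3, by omega⟩
  have h01 : x0 ≠ x1 := by simp [x0, x1]
  have h02 : x0 ≠ x2 := by simp [x0, x2]
  have h03 : x0 ≠ x3 := by simp [x0, x3]
  have h12 : x1 ≠ x2 := by simp [x1, x2]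
  have h13 : x1 ≠ x3 := by simp [x1, x3]
  have h23 : x2 ≠ x3 := by simp [x2, x3]
  rw [← comm_dt h01 h02 h03 h12 h13 h23, commutator_def]
  exact Subgroup.commutator_mem_commutator (Subgroup.mem_top _) (Subgroup.mem_top _)

theorem quot_alt : ∃ _ : (Subgroup.zpowers (z n)).Normal,
    Nonempty (Cov n ⧸ Subgroup.zpowers (z n) ≃* alternatingGroup (Fin n)) := by
  have hN : (Subgroup.zpowers (z n)).Normal := by rw [← ker_pr]; exact MonoidHom.normal_ker _
  refine ⟨hN, ?_⟩
  exact ⟨(QuotientGroup.quotientMulEquivOfEq ker_pr.symm).trans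
    (QuotientGroup.quotientKerEquivOfSurjective (pr n) pr_surj)⟩

theorem center_Cov (hn : 4 ≤ n) : Subgroup.center (Cov n) = Subgroup.zpowers (z n) := by
  apply le_antisymm
  · rw [← ker_pr]
    intro g hg
    rw [MonoidHom.mem_ker, ← Subgroup.mem_bot, ← alternatingGroup.center_eq_bot
      (α := Fin n) (by rw [Nat.card_fin]; exact hn), Subgroup.mem_center_iff]
    intro σ
    obtain ⟨h, rfl⟩ := pr_surj σ
    rw [← map_mul, ← map_mul, Subgroup.mem_center_iff.1 hg h]
  · rw [Subgroup.zpowers_le]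
    exact z_central

theorem nonsplit (hn : 4 ≤ n) (L : Subgroup (Cov n)) :
    ¬ (Subgroup.center (Cov n)).IsComplement' L := by
  intro hL
  rw [center_Cov hn] at hL
  have hN : (Subgroup.zpowers (z n)).Normal := by rw [← ker_pr]; exact MonoidHom.normal_ker _
  have hcen : ∀ a ∈ Subgroup.zpowers (z n), ∀ g : Cov n, a * g = g * a := by
    intro a ha g
    rw [← center_Cov hn] at ha
    exact (Subgroup.mem_center_iff.1 ha g).symm
  have hLn : L.Normal := by
    constructor
    intro l hl g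
    obtain ⟨⟨⟨a, ha⟩, ⟨m, hm⟩⟩, h⟩ := (hL : Subgroup.IsComplement _ _).2 g
    have h' : a * m = g := h
    have : g * l * g⁻¹ = m * l * m⁻¹ := by
      rw [← h', mul_inv_rev]
      calc a * m * l * (m⁻¹ * a⁻¹) = (a * (m * l * m⁻¹)) * a⁻¹ := by group
        _ = ((m * l * m⁻¹) * a) * a⁻¹ := by rw [hcen a ha]
        _ = m * l * m⁻¹ := by group
    rw [this]
    exact L.mul_mem (L.mul_mem hm hl) (L.inv_mem hm)
  -- the quotient by `L` is abelian
  have h1 : commutator (Cov n) ≤ L := by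
    rw [commutator_def, Subgroup.commutator_le]
    intro g _ h _
    obtain ⟨⟨⟨a, ha⟩, ⟨m, hm⟩⟩, e1⟩ := (hL : Subgroup.IsComplement _ _).2 g
    obtain ⟨⟨⟨b, hb⟩, ⟨m', hm'⟩⟩, e2⟩ := (hL : Subgroup.IsComplement _ _).2 h
    have e1' : a * m = g := e1
    have e2' : b * m' = h := e2
    have : ⁅g, h⁆ = ⁅m, m'⁆ := by
      rw [commutatorElement_def, commutatorElement_def, ← e1', ← e2', mul_inv_rev, mul_inv_rev]
      have c1 := hcen a ha
      have c2 := hcen b hb
      calc a * m * (b * m') * (m⁻¹ * a⁻¹) * (m'⁻¹ * b⁻¹)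
          = a * m * b * (m' * m⁻¹) * a⁻¹ * m'⁻¹ * b⁻¹ := by group
        _ = a * (m * b) * (m' * m⁻¹) * a⁻¹ * m'⁻¹ * b⁻¹ := by group
        _ = a * (b * m) * (m' * m⁻¹) * a⁻¹ * m'⁻¹ * b⁻¹ := by rw [c2 m]
        _ = (a * (b * (m * m' * m⁻¹))) * a⁻¹ * m'⁻¹ * b⁻¹ := by group
        _ = ((b * (m * m' * m⁻¹)) * a) * a⁻¹ * m'⁻¹ * b⁻¹ := by rw [c1]
        _ = b * (m * m' * m⁻¹ * m'⁻¹) * b⁻¹ := by group
        _ = (m * m' * m⁻¹ * m'⁻¹) * b * b⁻¹ := by rw [c2]
        _ = m * m' * m⁻¹ * m'⁻¹ := by group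
    rw [this, commutatorElement_def]
    exact L.mul_mem (L.mul_mem (L.mul_mem hm hm') (L.inv_mem hm)) (L.inv_mem hm')
  have h2 : z n ∈ L := h1 (z_mem_comm hn)
  have h3 := hL.disjoint
  rw [disjoint_iff] at h3
  have h4 : z n ∈ Subgroup.zpowers (z n) ⊓ L := ⟨Subgroup.mem_zpowers _, h2⟩
  rw [h3, Subgroup.mem_bot] at h4
  exact z_ne h4

end Cfsg.Agent.M24X.CovAlt
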