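import Cfsg.Agent.M24X.CovAlt2
import Cfsg.Agent.Hall.Gaschutz
import Cfsg.Agent.H20.DihQuat
import Cfsg.Prelude.Def_SporadicB

/-! Involutions in the double covers of the alternating groups. -/

set_option autoImplicit false

namespace Cfsg.Agent.M24X.CovAlt

open Equiv

theorem cycleType_inv {n : ℕ} (hn : n ≤ 7) {σ : Perm (Fin n)} (hs : Perm.sign σ = 1)
    (h2 : orderOf σ = 2) : σ.cycleType = {2, 2} := by
  have hp : (orderOf σ).Prime := by rw [h2]; exact Nat.prime_two
  obtain ⟨k, hk⟩ := Perm.cycleType_prime_order hp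
  rw [h2] at hk
  have hsum := Perm.sum_cycleType σ
  have hle : σ.cycleType.sum ≤ 7 := by
    rw [hsum]
    exact ((Finset.card_le_univ _).trans (by rw [Fintype.card_fin])).trans hn
  rw [hk, Multiset.sum_replicate, smul_eq_mul] at hle
  have hsg := Perm.sign_of_cycleType σ
  rw [hk, hs, Multiset.sum_replicate, Multiset.card_replicate, smul_eq_mul] at hsg
  have hk3 : k ≤ 2 := by omega
  interval_cases k
  · exfalso; revert hsg; decide
  · rw [hk]; rfl
  · exfalso; revert hsg; decide

theorem conj_inv {n : ℕ} (hn : n ≤ 7) {σ τ : alternatingGroup (Fin n)} (h1 : orderOf σ = 2)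
    (h2 : orderOf τ = 2) : IsConj σ τ := by
  have e1 := cycleType_inv hn (Perm.mem_alternatingGroup.1 σ.2) (by rw [Subgroup.orderOf_coe]; exact h1)
  have e2 := cycleType_inv hn (Perm.mem_alternatingGroup.1 τ.2) (by rw [Subgroup.orderOf_coe]; exact h2)
  obtain ⟨g, hg⟩ := isConj_iff.1 (Perm.isConj_iff_cycleType_eq.2 (e1.trans e2.symm))
  rcases Int.units_eq_one_or (Perm.sign g) with h | h
  · exact isConj_iff.2 ⟨⟨g, Perm.mem_alternatingGroup.2 h⟩, Subtype.ext hg⟩
  · -- an odd element of the centralizer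
    have hne : (σ : Perm (Fin n)) ≠ 1 := by
      intro h0
      have : σ = 1 := Subtype.ext h0
      rw [this, orderOf_one] at h1
      omega
    obtain ⟨i, hi⟩ : ∃ i, (σ : Perm (Fin n)) i ≠ i := by
      by_contra hcon
      push Not at hcon
      exact hne (Perm.ext hcon)
    have hss : (σ : Perm (Fin n)) * σ = 1 := by
      have := pow_orderOf_eq_one (σ : Perm (Fin n))
      rw [Subgroup.orderOf_coe, h1, sq] at this
      exact this
    have hc : (σ : Perm (Fin n)) * swap i (σ.1 i) = swap i (σ.1 i) * σ := by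
      rw [Equiv.mul_swap_eq_swap_mul]
      have : σ.1 (σ.1 i) = i := congrArg (fun f : Perm (Fin n) => f i) hss
      rw [this, swap_comm]
    refine isConj_iff.2 ⟨⟨g * swap i (σ.1 i), ?_⟩, Subtype.ext ?_⟩
    · rw [Perm.mem_alternatingGroup, Perm.sign_mul, h, Perm.sign_swap hi.symm]; rfl
    · show (g * swap i (σ.1 i)) * σ.1 * (g * swap i (σ.1 i))⁻¹ = τ.1
      rw [← hg, mul_inv_rev, mul_assoc g, ← hc]
      group

section Split

variable {H : Type*} [Group H] [Finite H] {n : ℕ}

theorem split (π : H →* alternatingGroup (Fin n)) (hπ : Function.Surjective π)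
    (hK : Nat.card π.ker = 2) (hc : ∀ x : H, orderOf (π x) = 2 → x * x = 1)
    (m : ℕ) [NeZero m] (hm : m = 2 ∨ m = 4)
    (a b : alternatingGroup (Fin n)) (ha : orderOf a = 2) (hb : orderOf b = 2)
    (hab : orderOf ((a * b) ^ (m / 2)) = 2)
    (hd1 : ∀ i : ZMod m, (a * b) ^ i.val = 1 → i = 0)
    (hd2 : ∀ i : ZMod m, b * (a * b) ^ i.val ≠ 1)
    (hodd : Odd (Nat.card (alternatingGroup (Fin n)) / (2 * m)))
    (hdvd : 2 * m ∣ Nat.card (alternatingGroup (Fin n))) :
    ∃ L : Subgroup H, π.ker.IsComplement' L := by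
  obtain ⟨x, hx⟩ := hπ a
  obtain ⟨y, hy⟩ := hπ b
  have hxx : x * x = 1 := hc x (by rw [hx]; exact ha)
  have hyy : y * y = 1 := hc y (by rw [hy]; exact hb)
  have hxi : x⁻¹ = x := inv_eq_of_mul_eq_one_right hxx
  have hyi : y⁻¹ = y := inv_eq_of_mul_eq_one_right hyy
  have ht : (x * y) ^ m = 1 := by
    have h1 := hc ((x * y) ^ (m / 2)) (by rw [map_pow, map_mul, hx, hy]; exact hab)
    rw [← pow_add] at h1
    have h2 : m / 2 + m / 2 = m := by rcases hm with rfl | rfl <;> rfl
    rwa [h2] at h1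
  obtain ⟨f, hf1, hf2⟩ := H20.exists_dihedralHom (N := m) (x := x * y) (s := y) ht hyy
    (by rw [mul_inv_rev, hxi, hyi, mul_assoc, mul_assoc, hyy, mul_one])
  have hinj : ∀ d, π (f d) = 1 → d = 1 := by
    rintro (i | i) h
    · rw [hf1, map_pow, map_mul, hx, hy] at h
      rw [hd1 i h]; rfl
    · rw [hf2, map_mul, map_pow, map_mul, hx, hy] at h
      exact absurd h (hd2 i)
  set P : Subgroup (alternatingGroup (Fin n)) := (π.comp f).range with hP
  have hPc : Nat.card P = 2 * m := by
    rw [hP, ← DihedralGroup.nat_card (n := m)]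
    have hi : Function.Injective (π.comp f) := by
      rw [injective_iff_map_eq_one]; exact hinj
    exact (Nat.card_congr (MonoidHom.ofInjective hi).toEquiv).symm
  set U : Subgroup H := P.comap π with hU
  have hidx : U.index = Nat.card (alternatingGroup (Fin n)) / (2 * m) := by
    rw [hU, Subgroup.index_comap_of_surjective _ hπ, ← P.card_mul_index, hPc]
    rw [Nat.mul_div_cancel_left _ (by rcases hm with rfl | rfl <;> norm_num)]
  have hcomm : IsMulCommutative π.ker := by
    have : Fact (Nat.Prime 2) := ⟨Nat.prime_two⟩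
    have : IsCyclic π.ker := isCyclic_of_prime_card hK
    exact IsCyclic.isMulCommutative
  refine Hall.gaschutz_exists π.ker U ?_ ?_ f.range ?_ ?_ ?_
  · intro k hk
    rw [hU, Subgroup.mem_comap, MonoidHom.mem_ker.1 hk]
    exact P.one_mem
  · rw [hK, hidx]
    exact (Nat.coprime_two_left).2 hodd
  · rintro _ ⟨d, rfl⟩
    exact ⟨d, rfl⟩
  · rw [eq_bot_iff]
    rintro _ ⟨⟨d, rfl⟩, hd⟩
    rw [hinj d (MonoidHom.mem_ker.1 hd), map_one]
    exact Subgroup.mem_bot.2 rfl
  · apply le_antisymm
    · apply sup_le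
      · intro k hk
        rw [hU, Subgroup.mem_comap, MonoidHom.mem_ker.1 hk]
        exact P.one_mem
      · rintro _ ⟨d, rfl⟩
        exact ⟨d, rfl⟩
    · rintro u ⟨d, hd⟩
      have h1 : u = (u * (f d)⁻¹) * f d := by group
      rw [h1]
      apply Subgroup.mul_mem_sup
      · rw [MonoidHom.mem_ker, map_mul, map_inv, ← hd]
        exact mul_inv_cancel _
      · exact ⟨d, rfl⟩

end Split

theorem card_alt {n : ℕ} (hn : 2 ≤ n) : Nat.card (alternatingGroup (Fin n)) = n.factorial / 2 := by
  have : Nontrivial (Fin n) := Fin.nontrivial_iff_two_le.2 hn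
  have h := two_mul_nat_card_alternatingGroup (α := Fin n)
  rw [Nat.card_perm, Nat.card_fin] at h
  omega

theorem main {H : Type*} [Group H] [Finite H] {n : ℕ} (hn : n ≤ 7)
    (h : IsNonsplitDoubleCover H (alternatingGroup (Fin n))) {x : H} (hx : orderOf x = 2) :
    x ∈ Subgroup.center H := by
  obtain ⟨h1, ⟨e⟩, h3⟩ := h
  let π : H →* alternatingGroup (Fin n) := e.toMonoidHom.comp (QuotientGroup.mk' (Subgroup.center H))
  have hπ : Function.Surjective π := e.surjective.comp (QuotientGroup.mk'_surjective _)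
  have hker : π.ker = Subgroup.center H := by
    ext g
    rw [MonoidHom.mem_ker]
    show e (QuotientGroup.mk' (Subgroup.center H) g) = 1 ↔ _
    rw [map_eq_one_iff e e.injective, QuotientGroup.mk'_apply, QuotientGroup.eq_one_iff]
  by_contra hxc
  have hxx : x * x = 1 := by
    have := pow_orderOf_eq_one x
    rwa [hx, sq] at this
  have hπx : orderOf (π x) = 2 := by
    have : Fact (Nat.Prime 2) := ⟨Nat.prime_two⟩
    apply orderOf_eq_prime
    · rw [sq, ← map_mul, hxx, map_one]
    · intro h0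
      apply hxc
      rw [← hker]
      exact MonoidHom.mem_ker.2 h0
  have hzz : ∀ k ∈ Subgroup.center H, k * k = 1 := by
    intro k hk
    have h4 : (⟨k, hk⟩ : Subgroup.center H) ^ Nat.card (Subgroup.center H) = 1 := pow_card_eq_one'
    rw [h1, sq] at h4
    exact congrArg Subtype.val h4
  have hc : ∀ y : H, orderOf (π y) = 2 → y * y = 1 := by
    intro y hy
    obtain ⟨g', hg'⟩ := isConj_iff.1 (conj_inv hn hπx hy)
    obtain ⟨g, rfl⟩ := hπ g'
    have h5 : (g * x * g⁻¹)⁻¹ * y ∈ Subgroup.center H := by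
      rw [← hker, MonoidHom.mem_ker, map_mul, map_inv, map_mul, map_mul, map_inv, hg',
        inv_mul_cancel]
    set k := (g * x * g⁻¹)⁻¹ * y with hk
    have h6 : y = (g * x * g⁻¹) * k := by rw [hk]; group
    have h7 := Subgroup.mem_center_iff.1 h5 (g * x * g⁻¹)
    rw [h6]
    calc g * x * g⁻¹ * k * (g * x * g⁻¹ * k)
        = (g * x * g⁻¹) * (k * (g * x * g⁻¹)) * k := by group
      _ = (g * x * g⁻¹) * ((g * x * g⁻¹) * k) * k := by rw [h7]
      _ = g * (x * x) * g⁻¹ * (k * k) := by group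
      _ = 1 := by rw [hxx, hzz k h5]; group
  have hπ2 : π x * π x = 1 := by rw [← map_mul, hxx, map_one]
  have hπ1 : π x ≠ 1 := by intro h0; rw [h0, orderOf_one] at hπx; omega
  have small : ∀ (hsm : ∀ σ : Perm (Fin n), Perm.sign σ = 1 → σ * σ = 1 → σ = 1), False := by
    intro hsm
    apply hπ1
    apply Subtype.ext
    exact hsm _ (Perm.mem_alternatingGroup.1 (π x).2) (congrArg Subtype.val hπ2)
  have fin : ∀ (m : ℕ) [NeZero m] (_ : m = 2 ∨ m = 4)
    (a b : alternatingGroup (Fin n)) (_ : orderOf a = 2) (_ : orderOf b = 2)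
    (_ : orderOf ((a * b) ^ (m / 2)) = 2)
    (_ : ∀ i : ZMod m, (a * b) ^ i.val = 1 → i = 0)
    (_ : ∀ i : ZMod m, b * (a * b) ^ i.val ≠ 1)
    (_ : Odd (Nat.card (alternatingGroup (Fin n)) / (2 * m)))
    (_ : 2 * m ∣ Nat.card (alternatingGroup (Fin n))), False := by
    intro m _ hm a b ha hb hab hd1 hd2 hodd hdvd
    obtain ⟨L, hL⟩ := split π hπ (by rw [hker]; exact h1) hc m hm a b ha hb hab hd1 hd2 hodd hdvd
    rw [hker] at hL
    exact h3 L hL
  have o2 : ∀ (a : alternatingGroup (Fin n)), a * a = 1 → a ≠ 1 → orderOf a = 2 := by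
    intro a h5 h6
    have : Fact (Nat.Prime 2) := ⟨Nat.prime_two⟩
    exact orderOf_eq_prime (by rw [sq]; exact h5) h6
  interval_cases n
  · exact small (by decide)
  · exact small (by decide)
  · exact small (by decide)
  · exact small (by decide)
  · exact fin 2 (Or.inl rfl) ⟨swap 0 1 * swap 2 3, even_sw (by decide) (by decide)⟩ ⟨swap 0 2 * swap 1 3, even_sw (by decide) (by decide)⟩
      (o2 _ (by decide) (by decide)) (o2 _ (by decide) (by decide)) (o2 _ (by decide) (by decide))
      (by decide) (by decide) (by rw [card_alt (by norm_num)]; decide)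
      (by rw [card_alt (by norm_num)]; decide)
  · exact fin 2 (Or.inl rfl) ⟨swap 0 1 * swap 2 3, even_sw (by decide) (by decide)⟩ ⟨swap 0 2 * swap 1 3, even_sw (by decide) (by decide)⟩
      (o2 _ (by decide) (by decide)) (o2 _ (by decide) (by decide)) (o2 _ (by decide) (by decide))
      (by decide) (by decide) (by rw [card_alt (by norm_num)]; decide)
      (by rw [card_alt (by norm_num)]; decide)
  · exact fin 4 (Or.inr rfl) ⟨swap 0 2 * swap 4 5, even_sw (by decide) (by decide)⟩ ⟨swap 0 1 * swap 2 3, even_sw (by decide) (by decide)⟩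
      (o2 _ (by decide) (by decide)) (o2 _ (by decide) (by decide)) (o2 _ (by decide) (by decide))
      (by decide) (by decide) (by rw [card_alt (by norm_num)]; decide)
      (by rw [card_alt (by norm_num)]; decide)
  · exact fin 4 (Or.inr rfl) ⟨swap 0 2 * swap 4 5, even_sw (by decide) (by decide)⟩ ⟨swap 0 1 * swap 2 3, even_sw (by decide) (by decide)⟩
      (o2 _ (by decide) (by decide)) (o2 _ (by decide) (by decide)) (o2 _ (by decide) (by decide))
      (by decide) (by decide) (by rw [card_alt (by norm_num)]; decide)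
      (by rw [card_alt (by norm_num)]; decide)

theorem main_eq {H : Type*} [Group H] [Finite H] {n : ℕ} (hn : n ≤ 7)
    (h : IsNonsplitDoubleCover H (alternatingGroup (Fin n))) {x y : H} (hx : orderOf x = 2)
    (hy : orderOf y = 2) : x = y := by
  have h1 := main hn h hx
  have h2 := main hn h hy
  have hcard := h.1
  by_contra hne
  have hx1 : x ≠ 1 := by intro h0; rw [h0, orderOf_one] at hx; omega
  have hy1 : y ≠ 1 := by intro h0; rw [h0, orderOf_one] at hy; omega
  have h3 : ({1, x, y} : Set H) ⊆ (Subgroup.center H : Set H) := by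
    rintro w (rfl | rfl | rfl)
    · exact Subgroup.one_mem _
    · exact h1
    · exact h2
  have h4 := Set.ncard_le_ncard h3 (Set.toFinite _)
  have h5 : ({1, x, y} : Set H).ncard = 3 := by
    rw [Set.ncard_eq_three]
    exact ⟨1, x, y, hx1.symm, hy1.symm, hne, rfl⟩
  have h6 : (Subgroup.center H : Set H).ncard = 2 := by
    rw [← Nat.card_coe_set_eq]; exact hcard
  omega

/-- The second part. -/
theorem cover8 : ∃ (H : Type) (_ : Group H) (_ : Finite H),
    IsNonsplitDoubleCover H (alternatingGroup (Fin 8)) ∧ ∃ x y : H, x ≠ y ∧ orderOf x = 2 ∧ orderOf y = 2 := by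
  have hF : Fact (Nat.Prime 2) := ⟨Nat.prime_two⟩
  refine ⟨Cov 8, inferInstance, inferInstance, ⟨?_, ?_, nonsplit (by norm_num)⟩, z 8,
    dt (n := 8) (i := 0) (j := 1) (k := 2) (l := 3) (by decide) (by decide) *
      dt (n := 8) (i := 4) (j := 5) (k := 6) (l := 7) (by decide) (by decide), ?_, orderOf_z, ?_⟩
  · rw [center_Cov (by norm_num), Nat.card_zpowers, orderOf_z]
  · obtain ⟨hN, ⟨e⟩⟩ := quot_alt (n := 8)
    exact ⟨(QuotientGroup.quotientMulEquivOfEq (center_Cov (by norm_num))).trans e⟩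
  · intro h
    have h1 := congrArg (fun x : Cov 8 => ((pr 8 x : alternatingGroup (Fin 8)) : Perm (Fin 8)) 0) h
    have h2 : ((1 : Perm (Fin 8)) 0) = ((swap 0 1 * swap 2 3) * (swap 4 5 * swap 6 7) : Perm (Fin 8)) 0 := h1
    revert h2; decide
  · apply orderOf_eq_prime
    · rw [sq]
      apply Subtype.ext
      apply Prod.ext
      · apply Subtype.ext
        show ((swap 0 1 * swap 2 3) * (swap 4 5 * swap 6 7) : Perm (Fin 8)) *
          ((swap 0 1 * swap 2 3) * (swap 4 5 * swap 6 7)) = 1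
        decide
      · apply Units.ext
        show ((t 0 1 * t 2 3) * (t 4 5 * t 6 7) : E 8) * ((t 0 1 * t 2 3) * (t 4 5 * t 6 7)) = 1
        have a1 : (t 0 1 : E 8) * t 0 1 = -1 := t_sq (by decide)
        have a2 : (t 2 3 : E 8) * t 2 3 = -1 := t_sq (by decide)
        have a3 : (t 4 5 : E 8) * t 4 5 = -1 := t_sq (by decide)
        have a4 : (t 6 7 : E 8) * t 6 7 = -1 := t_sq (by decide)
        have b12 : (t 2 3 : E 8) * t 0 1 = -(t 0 1 * t 2 3) := t_anti (by decide) (by decide) (by decide) (by decide)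
        have b13 : (t 4 5 : E 8) * t 0 1 = -(t 0 1 * t 4 5) := t_anti (by decide) (by decide) (by decide) (by decide)
        have b14 : (t 6 7 : E 8) * t 0 1 = -(t 0 1 * t 6 7) := t_anti (by decide) (by decide) (by decide) (by decide)
        have b23 : (t 4 5 : E 8) * t 2 3 = -(t 2 3 * t 4 5) := t_anti (by decide) (by decide) (by decide) (by decide)
        have b24 : (t 6 7 : E 8) * t 2 3 = -(t 2 3 * t 6 7) := t_anti (by decide) (by decide) (by decide) (by decide)
        have b34 : (t 6 7 : E 8) * t 4 5 = -(t 4 5 * t 6 7) := t_anti (by decide) (by decide) (by decide) (by decide)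
        have c1 : ((t 0 1 * t 2 3) * (t 0 1 * t 2 3) : E 8) = -1 := by
          rw [← mul_assoc, mul_assoc (t 0 1), b12, mul_neg, neg_mul, ← mul_assoc, a1, neg_mul,
            one_mul, neg_mul, neg_neg, a2]
        have c2 : ((t 4 5 * t 6 7) * (t 4 5 * t 6 7) : E 8) = -1 := by
          rw [← mul_assoc, mul_assoc (t 4 5), b34, mul_neg, neg_mul, ← mul_assoc, a3, neg_mul,
            one_mul, neg_mul, neg_neg, a4]
        have c3 : ((t 4 5 * t 6 7) * (t 0 1 * t 2 3) : E 8) = (t 0 1 * t 2 3) * (t 4 5 * t 6 7) := by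
          have d1 : (t 4 5 * t 6 7 : E 8) * t 0 1 = t 0 1 * (t 4 5 * t 6 7) := by
            rw [mul_assoc, b14, mul_neg, ← mul_assoc, b13, neg_mul, neg_neg, mul_assoc]
          have d2 : (t 4 5 * t 6 7 : E 8) * t 2 3 = t 2 3 * (t 4 5 * t 6 7) := by
            rw [mul_assoc, b24, mul_neg, ← mul_assoc, b23, neg_mul, neg_neg, mul_assoc]
          rw [← mul_assoc, d1, mul_assoc, d2, ← mul_assoc]
        calc ((t 0 1 * t 2 3) * (t 4 5 * t 6 7) : E 8) * ((t 0 1 * t 2 3) * (t 4 5 * t 6 7))
            = (t 0 1 * t 2 3) * ((t 4 5 * t 6 7) * (t 0 1 * t 2 3)) * (t 4 5 * t 6 7) := by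
              simp only [mul_assoc]
          _ = ((t 0 1 * t 2 3) * (t 0 1 * t 2 3)) * ((t 4 5 * t 6 7) * (t 4 5 * t 6 7)) := by
              rw [c3]; simp only [mul_assoc]
          _ = 1 := by rw [c1, c2, neg_mul_neg, one_mul]
    · intro h
      have h1 := congrArg (fun x : Cov 8 => ((pr 8 x : alternatingGroup (Fin 8)) : Perm (Fin 8)) 0) h
      have h2 : ((swap 0 1 * swap 2 3) * (swap 4 5 * swap 6 7) : Perm (Fin 8)) 0 = ((1 : Perm (Fin 8)) 0) := h1
      revert h2; decide

end Cfsg.Agent.M24X.CovAlt
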