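import Cfsg.Agent.M24X.Res
import Cfsg.Agent.Golay.OrbOct

/-!
# Elements of `M24` fixing points of octads (owner: helper92)
-/

set_option autoImplicit false

namespace Cfsg.Agent.M24X

open Cfsg MulAction Cfsg.Agent.Golay Cfsg.Agent.Golay.Orb
open scoped Pointwise

/-- An element of `M24` fixing six points of an octad fixes it pointwise. -/
theorem six_fix {o : Finset GolayPt} (ho : o ∈ octads) {s : Finset GolayPt} (hs : s ⊆ o) (h6 : 6 ≤ s.card)
    {σ : Equiv.Perm GolayPt} (hσ : σ ∈ M24) (h : ∀ p ∈ s, σ p = p) : ∀ p ∈ o, σ p = p := by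
  obtain ⟨x, hxs, hx⟩ := exists_fam h6
  obtain ⟨τ, hτ, hτx⟩ := six_in_base x hx ⟨o, ho, fun i => hs (hxs i)⟩
  have h1 : τ⁻¹ * σ * τ ∈ KIn := by
    rw [mem_KIn]
    refine ⟨M24.mul_mem (M24.mul_mem (M24.inv_mem hτ) hσ) hτ, fun i => ?_⟩
    rw [Equiv.Perm.mul_apply, Equiv.Perm.mul_apply, hτx, h _ (hxs i), Equiv.Perm.inv_eq_iff_eq, hτx]
  have h2 : τ • O₀ = o := by
    have h3 : (Finset.univ.image x).card = 6 := by
      rw [Finset.card_image_of_injective _ hx]; rfl
    apply octad_eq_of_subset ((smul_mem_octads hτ).2 O₀_mem) ho (s := Finset.univ.image x)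
    · intro q hq
      rw [Finset.mem_image] at hq
      obtain ⟨i, -, rfl⟩ := hq
      rw [← hτx i]
      have : ∀ i : Fin 6, baseIn i ∈ O₀ := by decide
      exact Finset.smul_mem_smul_finset (this i)
    · intro q hq
      rw [Finset.mem_image] at hq
      obtain ⟨i, -, rfl⟩ := hq
      exact hs (hxs i)
    · rw [h3]; norm_num
  intro p hp
  rw [← h2, Finset.mem_smul_finset] at hp
  obtain ⟨q, hq, rfl⟩ := hp
  have h4 := KIn_fixes h1 q hq
  rw [Equiv.Perm.mul_apply, Equiv.Perm.mul_apply, Equiv.Perm.inv_eq_iff_eq] at h4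
  exact h4

theorem mem_KIn_of_fix {σ : Equiv.Perm GolayPt} (hσ : σ ∈ M24) (h : ∀ p ∈ O₀, σ p = p) : σ ∈ KIn := by
  rw [mem_KIn]
  refine ⟨hσ, fun i => h _ ?_⟩
  revert i; decide

theorem e16_pair : ∀ n ∈ Orb.e16, pmask n 69395 = 69395 → n = idTab := by decide +kernel

theorem oc_mem : ofMask 69395 ∈ octads := by
  rw [mem_octads_iff]
  constructor
  · decide +kernel
  · decide +kernel

/-- An element of `M24` fixing an octad pointwise and stabilising another one meeting it in two points is trivial. -/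
theorem fix_pair {o o' : Finset GolayPt} (ho : o ∈ octads) (ho' : o' ∈ octads) (h2 : (o ∩ o').card = 2)
    {σ : Equiv.Perm GolayPt} (hσ : σ ∈ M24) (h : ∀ p ∈ o, σ p = p) (hs : σ • o' = o') : σ = 1 := by
  have hb : (O₀ ∩ ofMask 69395).card = 2 := by decide +kernel
  obtain ⟨τ, hτ, h3, h4⟩ := oct_pair_trans ho ho' O₀_mem oc_mem (by rw [h2, hb])
  have h5 : τ * σ * τ⁻¹ ∈ KIn := by
    apply mem_KIn_of_fix (M24.mul_mem (M24.mul_mem hτ hσ) (M24.inv_mem hτ))
    intro p hp
    rw [← h3, Finset.mem_smul_finset] at hp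
    obtain ⟨q, hq, rfl⟩ := hp
    rw [Equiv.Perm.mul_apply, Equiv.Perm.mul_apply]
    have : τ⁻¹ (τ • q) = q := by
      rw [Equiv.Perm.inv_eq_iff_eq]; rfl
    rw [this, h q hq]; rfl
  obtain ⟨n, hn, hT⟩ := KIn_exhaust _ h5
  have h6 : (τ * σ * τ⁻¹) • ofMask 69395 = ofMask 69395 := by
    rw [mul_smul, mul_smul, ← h4, inv_smul_smul, hs]
  rw [smul_eq_iff_pmask hT, maskOf_ofMask (by norm_num)] at h6
  rw [e16_pair n hn h6] at hT
  have h7 := isTable_unique hT isTable_one
  have h8 : σ = τ⁻¹ * (τ * σ * τ⁻¹) * τ := by group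
  rw [h8, h7]; group

theorem joint_six {o o' : Finset GolayPt} (ho : o ∈ octads) (ho' : o' ∈ octads) (h2 : (o ∩ o').card = 2)
    (h720 : Nat.card (stabilizer M24 o ⊓ stabilizer M24 o' : Subgroup M24) = 720) :
    Nonempty (↥(stabilizer M24 o ⊓ stabilizer M24 o') ≃* Equiv.Perm (Fin 6)) := by
  have hst : ∀ g ∈ stabilizer M24 o ⊓ stabilizer M24 o', g • (o \ o') = o \ o' := by
    intro g hg
    rw [Finset.smul_finset_sdiff, (hg.1 : g • o = o), (hg.2 : g • o' = o')]
  have h6 : (o \ o').card = 6 := by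
    have := Finset.card_sdiff_add_card_inter o o'
    rw [card_octad ho] at this
    omega
  have hinj := resH_injective hst (by
    intro g hg h
    have h3 := six_fix ho (s := o \ o') Finset.sdiff_subset (by omega) g.2 h
    exact Subtype.ext (fix_pair ho ho' h2 g.2 h3 hg.2))
  refine perm_equiv h6 (resH _ (o \ o') hst) ((Nat.bijective_iff_injective_and_card _).2 ⟨hinj, ?_⟩)
  rw [h720, Nat.card_eq_fintype_card, Fintype.card_perm, Fintype.card_coe, h6]
  rfl

end Cfsg.Agent.M24X
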